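import Cfsg.Agent.LSSL.Lin

/-!
Irreducible representations from doubly transitive actions.
-/

set_option autoImplicit false
set_option linter.unusedSectionVars false
set_option linter.style.haveILetI false

namespace Cfsg.Agent.LSSL

open Module Matrix

section general
variable {G : Type*} [Group G] {V : Type*} [AddCommGroup V] [Module ℂ V]

theorem irr_of (ρ : Representation ℂ G V) [Nontrivial V]
    (h : ∀ W : Submodule ℂ V, (∀ g, ∀ v ∈ W, ρ g v ∈ W) → W = ⊥ ∨ W = ⊤) : ρ.IsIrreducible := by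
  haveI : Nontrivial (Subrepresentation ρ) := by
    refine ⟨⊥, ⊤, fun h0 => ?_⟩
    obtain ⟨v, hv⟩ := exists_ne (0 : V)
    have h1 : v ∈ (⊤ : Subrepresentation ρ).toSubmodule := Submodule.mem_top
    rw [← h0] at h1
    exact hv h1
  refine { eq_bot_or_eq_top := fun σ => ?_ }
  rcases h σ.toSubmodule (fun g v hv => σ.apply_mem_toSubmodule g hv) with h1 | h1
  · left
    exact Subrepresentation.toSubmodule_injective h1
  · right
    exact Subrepresentation.toSubmodule_injective h1

theorem exists_fin [FiniteDimensional ℂ V] {ρ : Representation ℂ G V} (hirr : ρ.IsIrreducible) [Nontrivial V] {N : ℕ}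
    (hN : finrank ℂ V = N) : ∃ ρ' : Representation ℂ G (Fin N → ℂ), ρ'.IsIrreducible := by
  let e : V ≃ₗ[ℂ] (Fin N → ℂ) := LinearEquiv.ofFinrankEq _ _ (by rw [hN, finrank_fin_fun])
  let ρ' : Representation ℂ G (Fin N → ℂ) :=
    { toFun := fun g => e.toLinearMap ∘ₗ ρ g ∘ₗ e.symm.toLinearMap
      map_one' := by
        ext v
        simp
      map_mul' := fun g h => by
        apply LinearMap.ext
        intro v
        simp [map_mul] }
  have hρ' : ∀ g v, ρ' g v = e (ρ g (e.symm v)) := fun _ _ => rfl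
  refine ⟨ρ', ?_⟩
  haveI : Nontrivial (Fin N → ℂ) := e.symm.toEquiv.nontrivial
  apply irr_of
  intro W hW
  let σ : Subrepresentation ρ :=
    { toSubmodule := W.comap e.toLinearMap
      apply_mem_toSubmodule := by
        intro g v hv
        have := hW g _ hv
        rw [hρ'] at this
        simpa using this }
  rcases hirr.eq_bot_or_eq_top σ with h1 | h1
  · left
    rw [eq_bot_iff]
    intro v hv
    have h2 : e.symm v ∈ σ.toSubmodule := by
      change e (e.symm v) ∈ W
      rwa [LinearEquiv.apply_symm_apply]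
    rw [h1] at h2
    have h3 : e.symm v = 0 := h2
    rw [Submodule.mem_bot]
    rw [← e.apply_symm_apply v, h3, map_zero]
  · right
    rw [eq_top_iff]
    intro v _
    have h2 : e.symm v ∈ σ.toSubmodule := by
      rw [h1]; exact Submodule.mem_top
    have h3 : e (e.symm v) ∈ W := h2
    rwa [LinearEquiv.apply_symm_apply] at h3

end general

section perm
variable {G X : Type*} [Group G] [Finite G] [Fintype X] [DecidableEq X] [MulAction G X]

/-- functions with sum zero -/
def Y0 (X : Type*) [Fintype X] : Submodule ℂ (X → ℂ) where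
  carrier := {φ | ∑ x, φ x = 0}
  add_mem' {a b} ha hb := by
    change ∑ x, (a x + b x) = 0
    rw [Finset.sum_add_distrib, ha, hb, add_zero]
  zero_mem' := by
    change ∑ _x : X, (0 : ℂ) = 0
    simp
  smul_mem' c a ha := by
    change ∑ x, c * a x = 0
    rw [← Finset.mul_sum, ha, mul_zero]

theorem mem_Y0 {X : Type*} [Fintype X] {φ : X → ℂ} : φ ∈ Y0 X ↔ ∑ x, φ x = 0 := Iff.rfl

/-- the permutation representation on functions with sum zero -/
def repY (G X : Type*) [Group G] [Fintype X] [MulAction G X] : Representation ℂ G (Y0 X) where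
  toFun g :=
    { toFun := fun φ => ⟨fun x => (φ : X → ℂ) (g⁻¹ • x), by
        rw [mem_Y0]
        have h := φ.2
        rw [mem_Y0] at h
        rw [← h]
        exact Equiv.sum_comp (MulAction.toPerm g⁻¹) (fun x => (φ : X → ℂ) x)⟩
      map_add' := fun a b => rfl
      map_smul' := fun c a => rfl }
  map_one' := by
    ext φ x
    change (φ : X → ℂ) ((1 : G)⁻¹ • x) = (φ : X → ℂ) x
    rw [inv_one, one_smul]
  map_mul' g h := by
    ext φ x
    change (φ : X → ℂ) ((g * h)⁻¹ • x) = (φ : X → ℂ) (h⁻¹ • g⁻¹ • x)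
    rw [_root_.mul_inv_rev, mul_smul]

theorem repY_apply (g : G) (φ : Y0 X) (x : X) : (repY G X g φ : X → ℂ) x = (φ : X → ℂ) (g⁻¹ • x) := rfl

theorem finrank_Y0 [Nonempty X] : finrank ℂ (Y0 X) = Fintype.card X - 1 := by
  let s : (X → ℂ) →ₗ[ℂ] ℂ :=
    { toFun := fun φ => ∑ x, φ x
      map_add' := fun a b => Finset.sum_add_distrib
      map_smul' := fun c a => (Finset.mul_sum _ _ _).symm }
  have h1 : LinearMap.ker s = Y0 X := by ext φ; exact Iff.rfl
  have hsurj : Function.Surjective s := by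
    apply LinearMap.surjective
    intro h0
    obtain ⟨x⟩ := ‹Nonempty X›
    have : s (Pi.single x 1) = 0 := by rw [h0]; rfl
    change ∑ y, (Pi.single x 1 : X → ℂ) y = 0 at this
    rw [Finset.sum_pi_single' x (1 : ℂ) Finset.univ] at this
    simp at this
  have h2 := LinearMap.finrank_range_add_finrank_ker s
  rw [LinearMap.range_eq_top.2 hsurj, finrank_top, finrank_self, h1, finrank_fintype_fun_eq_card] at h2
  omega

theorem irr_Y0 (h2 : ∀ x y x' y' : X, x ≠ y → x' ≠ y' → ∃ g : G, g • x = x' ∧ g • y = y') (hN : 2 ≤ Fintype.card X) :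
    Nontrivial (Y0 X) ∧ (repY G X).IsIrreducible := by
  classical
  haveI : Nonempty X := Fintype.card_pos_iff.1 (by omega)
  haveI hnt : Nontrivial (Y0 X) := by
    apply Module.nontrivial_of_finrank_pos (R := ℂ)
    rw [finrank_Y0]; omega
  refine ⟨hnt, ?_⟩
  letI : Fintype G := Fintype.ofFinite G
  apply irr_of
  intro W hW
  by_cases hbot : W = ⊥
  · exact Or.inl hbot
  right
  obtain ⟨φ, hφ, hφ0⟩ := (Submodule.ne_bot_iff _).1 hbot
  obtain ⟨x, hx⟩ : ∃ x, (φ : X → ℂ) x ≠ 0 := by
    by_contra hcon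
    push Not at hcon
    apply hφ0
    apply Subtype.ext
    funext x
    exact hcon x
  -- the sum over the stabilizer
  set H : Finset G := Finset.univ.filter fun g => g • x = x with hH
  set η : Y0 X := ∑ g ∈ H, repY G X g φ with hη
  have hηW : η ∈ W := W.sum_mem fun g _ => hW g φ hφ
  have hηv : ∀ y, (η : X → ℂ) y = ∑ g ∈ H, (φ : X → ℂ) (g⁻¹ • y) := by
    intro y
    rw [hη, AddSubmonoidClass.coe_finsetSum, Finset.sum_apply]
    rfl
  have hηx : (η : X → ℂ) x = H.card * (φ : X → ℂ) x := by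
    rw [hηv, Finset.sum_congr rfl (g := fun _ => (φ : X → ℂ) x), Finset.sum_const, nsmul_eq_mul]
    intro g hg
    have h1 : g • x = x := (Finset.mem_filter.1 hg).2
    have h3 : g⁻¹ • x = x := by conv_lhs => rw [← h1, inv_smul_smul]
    rw [h3]
  have hHpos : (H.card : ℂ) ≠ 0 := by
    have : H.card ≠ 0 := Finset.card_ne_zero_of_mem (a := 1) (by rw [hH, Finset.mem_filter]; exact ⟨Finset.mem_univ _, one_smul _ _⟩)
    exact_mod_cast this
  have hηx0 : (η : X → ℂ) x ≠ 0 := by
    rw [hηx]; exact mul_ne_zero hHpos hx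
  have hinv : ∀ k : G, k • x = x → ∀ y, (η : X → ℂ) (k • y) = (η : X → ℂ) y := by
    intro k hk y
    rw [hηv, hηv]
    refine Finset.sum_nbij' (fun g => k⁻¹ * g) (fun g => k * g) ?_ ?_ ?_ ?_ ?_
    · intro g hg
      rw [hH, Finset.mem_filter] at hg ⊢
      refine ⟨Finset.mem_univ _, ?_⟩
      rw [mul_smul, hg.2]
      conv_lhs => rw [← hk, inv_smul_smul]
    · intro g hg
      rw [hH, Finset.mem_filter] at hg ⊢
      exact ⟨Finset.mem_univ _, by rw [mul_smul, hg.2, hk]⟩
    · intro g _; simp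
    · intro g _; simp
    · intro g _
      rw [_root_.mul_inv_rev, inv_inv, mul_smul]
  obtain ⟨b, hb⟩ : ∃ b : ℂ, ∀ y, y ≠ x → (η : X → ℂ) y = b := by
    by_cases hex : ∃ y, y ≠ x
    · obtain ⟨y₀, hy₀⟩ := hex
      refine ⟨(η : X → ℂ) y₀, fun y hy => ?_⟩
      obtain ⟨k, hk1, hk2⟩ := h2 x y₀ x y hy₀.symm hy.symm
      rw [← hk2, hinv k hk1]
    · exact ⟨0, fun y hy => absurd ⟨y, hy⟩ hex⟩
  -- `η = a (δ_x) + b`
  set a : ℂ := (η : X → ℂ) x - b with ha
  have hηf : ∀ y, (η : X → ℂ) y = a * (Pi.single x 1 : X → ℂ) y + b := by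
    intro y
    by_cases hy : y = x
    · rw [hy, Pi.single_eq_same, ha]; ring
    · rw [Pi.single_eq_of_ne hy, hb y hy]; ring
  have hsum : a + Fintype.card X * b = 0 := by
    have h3 := η.2
    rw [mem_Y0, Finset.sum_congr rfl (fun y _ => hηf y), Finset.sum_add_distrib, ← Finset.mul_sum,
      Finset.sum_pi_single' x (1 : ℂ) Finset.univ, if_pos (Finset.mem_univ _), Finset.sum_const, Finset.card_univ,
      nsmul_eq_mul] at h3
    linear_combination h3
  have hN0 : (Fintype.card X : ℂ) ≠ 0 := by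
    have : Fintype.card X ≠ 0 := by omega
    exact_mod_cast this
  have ha0 : a ≠ 0 := by
    intro h0
    rw [h0, zero_add] at hsum
    have hb0 : b = 0 := (mul_eq_zero.1 hsum).resolve_left hN0
    apply hηx0
    rw [hηf, h0, hb0]; ring
  -- the translates
  rw [eq_top_iff]
  intro ζ _
  have htr : ∀ y : X, ∃ ξ ∈ W, ∀ z, (ξ : X → ℂ) z = (Pi.single y 1 : X → ℂ) z - (Fintype.card X : ℂ)⁻¹ := by
    intro y
    obtain ⟨k, hk⟩ : ∃ k : G, k • x = y := by
      by_cases hxy : y = x
      · exact ⟨1, by rw [one_smul, hxy]⟩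
      · obtain ⟨k, hk, _⟩ := h2 x y y x (Ne.symm hxy) hxy
        exact ⟨k, hk⟩
    refine ⟨a⁻¹ • repY G X k η, W.smul_mem _ (hW k η hηW), fun z => ?_⟩
    change a⁻¹ * (η : X → ℂ) (k⁻¹ • z) = _
    rw [hηf]
    have h3 : (Pi.single x 1 : X → ℂ) (k⁻¹ • z) = (Pi.single y 1 : X → ℂ) z := by
      by_cases hz : z = y
      · rw [hz, ← hk, inv_smul_smul, Pi.single_eq_same, Pi.single_eq_same]
      · rw [Pi.single_eq_of_ne hz, Pi.single_eq_of_ne]
        intro h4
        apply hz
        rw [← hk, ← h4, smul_inv_smul]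
    rw [h3]
    have h4 : b = -(a * (Fintype.card X : ℂ)⁻¹) := by
      field_simp
      linear_combination hsum
    rw [h4, mul_add, ← mul_assoc, inv_mul_cancel₀ ha0, mul_neg, ← mul_assoc, inv_mul_cancel₀ ha0]
    ring
  choose ξ hξW hξ using htr
  have hζ : ζ = ∑ y, (ζ : X → ℂ) y • ξ y := by
    apply Subtype.ext
    funext z
    rw [AddSubmonoidClass.coe_finsetSum, Finset.sum_apply]
    have h3 : ∀ y, ((((ζ : X → ℂ) y • ξ y : Y0 X)) : X → ℂ) z =
        (ζ : X → ℂ) y * (Pi.single y 1 : X → ℂ) z - (ζ : X → ℂ) y * (Fintype.card X : ℂ)⁻¹ := by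
      intro y
      change (ζ : X → ℂ) y * (ξ y : X → ℂ) z = _
      rw [hξ, mul_sub]
    rw [Finset.sum_congr rfl fun y _ => h3 y, Finset.sum_sub_distrib, ← Finset.sum_mul, mem_Y0.1 ζ.2, zero_mul, sub_zero,
      Finset.sum_eq_single z]
    · rw [Pi.single_eq_same, mul_one]
    · intro y _ hy
      rw [Pi.single_eq_of_ne (Ne.symm hy), mul_zero]
    · intro h; exact absurd (Finset.mem_univ _) h
  rw [hζ]
  exact W.sum_mem fun y _ => W.smul_mem _ (hξW y)

theorem exists_irr (h2 : ∀ x y x' y' : X, x ≠ y → x' ≠ y' → ∃ g : G, g • x = x' ∧ g • y = y') (hN : 2 ≤ Fintype.card X) :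
    ∃ ρ : Representation ℂ G (Fin (Fintype.card X - 1) → ℂ), ρ.IsIrreducible := by
  haveI : Nonempty X := Fintype.card_pos_iff.1 (by omega)
  obtain ⟨h1, h3⟩ := irr_Y0 (G := G) (X := X) h2 hN
  exact exists_fin h3 finrank_Y0

end perm

section proj
variable {ι : Type*} [Fintype ι] [DecidableEq ι] {F : Type*} [Field F]

open scoped LinearAlgebra.Projectivization

theorem mv_ne_zero (a : Matrix.SpecialLinearGroup ι F) {x : ι → F} (hx : x ≠ 0) : mv a x ≠ 0 := by
  intro h
  apply hx
  rw [← mv_inv_mv a x, h, mv_zero]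

/-- the action on projective points -/
@[reducible] noncomputable def pAct (ι : Type*) [Fintype ι] [DecidableEq ι] (F : Type*) [Field F] :
    MulAction (Matrix.SpecialLinearGroup ι F) (ℙ F (ι → F)) where
  smul a := Projectivization.map (Matrix.mulVecLin (a : Matrix ι ι F)) (fun x y h => by
    have h' : mv a x = mv a y := h
    rw [← mv_inv_mv a x, h', mv_inv_mv])
  one_smul x := by
    induction x using Projectivization.ind with
    | h v hv =>
      change Projectivization.mk F (mv 1 v) (mv_ne_zero 1 hv) = Projectivization.mk F v hv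
      exact (Projectivization.mk_eq_mk_iff' F _ _ _ _).2 ⟨1, by rw [one_smul, mv_one]⟩
  mul_smul a b x := by
    induction x using Projectivization.ind with
    | h v hv =>
      change Projectivization.mk F (mv (a * b) v) (mv_ne_zero _ hv) =
        Projectivization.mk F (mv a (mv b v)) (mv_ne_zero _ (mv_ne_zero _ hv))
      exact (Projectivization.mk_eq_mk_iff' F _ _ _ _).2 ⟨1, by rw [one_smul, mv_mul]⟩

/-- transitivity on pairs of vectors -/
theorem exists_pair_vec {v w v' w' : ι → F} (hι : 3 ≤ Fintype.card ι) (h : Ind v w) (h' : Ind v' w') :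
    ∃ a : Matrix.SpecialLinearGroup ι F, mv a v = v' ∧ mv a w = w' := by
  obtain ⟨a, ha1, ha2⟩ := exists_pair hι h h'
  refine ⟨(a⁻¹).transpose, ?_, ?_⟩
  · rw [mv, Matrix.SpecialLinearGroup.coe_transpose, Matrix.mulVec_transpose]; exact ha1
  · rw [mv, Matrix.SpecialLinearGroup.coe_transpose, Matrix.mulVec_transpose]; exact ha2

theorem exists_irr_SL [Fintype F] (hι : 3 ≤ Fintype.card ι) :
    ∃ ρ : Representation ℂ (Matrix.SpecialLinearGroup ι F)
      (Fin ((Fintype.card F ^ Fintype.card ι - Fintype.card F) / (Fintype.card F - 1)) → ℂ), ρ.IsIrreducible := by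
  classical
  letI := pAct ι F
  haveI : Finite (ℙ F (ι → F)) := inferInstance
  letI : Fintype (ℙ F (ι → F)) := Fintype.ofFinite _
  have hcard := Projectivization.card F (ι → F)
  rw [Nat.card_eq_fintype_card, Nat.card_eq_fintype_card, Nat.card_eq_fintype_card, Fintype.card_fun] at hcard
  set q := Fintype.card F with hq
  set N := Fintype.card (ℙ F (ι → F)) with hN
  have hq2 : 2 ≤ q := Fintype.one_lt_card
  obtain ⟨m, hm⟩ : ∃ m, Fintype.card ι = m + 3 := ⟨Fintype.card ι - 3, by omega⟩
  have hpow : q < q ^ Fintype.card ι := by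
    rw [hm, pow_succ']
    exact lt_mul_of_one_lt_right (by omega) (Nat.one_lt_pow (by omega) (by omega))
  have hN2 : 2 ≤ N := by
    by_contra hcon
    have : N ≤ 1 := by omega
    have h1 : N * (q - 1) ≤ 1 * (q - 1) := Nat.mul_le_mul_right _ this
    omega
  have hdeg : (q ^ Fintype.card ι - q) / (q - 1) = N - 1 := by
    have h1 : q ^ Fintype.card ι - q = (N - 1) * (q - 1) := by
      rw [Nat.sub_mul, ← hcard]
      omega
    rw [h1, Nat.mul_div_cancel _ (by omega)]
  rw [hdeg]
  refine exists_irr ?_ hN2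
  intro x y x' y' hxy hxy'
  induction x using Projectivization.ind with
  | h v hv =>
  induction y using Projectivization.ind with
  | h w hw =>
  induction x' using Projectivization.ind with
  | h v' hv' =>
  induction y' using Projectivization.ind with
  | h w' hw' =>
  have key : ∀ (v w : ι → F) (hv : v ≠ 0) (hw : w ≠ 0),
      Projectivization.mk F v hv ≠ Projectivization.mk F w hw → Ind v w := by
    intro v w hv hw h
    refine ⟨hv, fun h1 => h ?_⟩
    obtain ⟨c, hc⟩ := Submodule.mem_span_singleton.1 h1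
    rw [eq_comm, Projectivization.mk_eq_mk_iff']
    exact ⟨c, hc⟩
  obtain ⟨a, ha1, ha2⟩ := exists_pair_vec hι (key v w hv hw hxy) (key v' w' hv' hw' hxy')
  refine ⟨a, ?_, ?_⟩
  · change Projectivization.mk F (mv a v) (mv_ne_zero _ hv) = _
    exact (Projectivization.mk_eq_mk_iff' F _ _ _ _).2 ⟨1, by rw [one_smul, ha1]⟩
  · change Projectivization.mk F (mv a w) (mv_ne_zero _ hw) = _
    exact (Projectivization.mk_eq_mk_iff' F _ _ _ _).2 ⟨1, by rw [one_smul, ha2]⟩

end proj

end Cfsg.Agent.LSSL
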