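import Cfsg.Agent.LSSL.Stab

/-!
Averaging operators.
-/

set_option autoImplicit false
set_option linter.unusedSectionVars false

namespace Cfsg.Agent.LSSL

open Module Matrix Cfsg.Agent.H39 Cfsg.Agent.LSU

section general
variable {G : Type*} [Group G] [Finite G] {V : Type*} [AddCommGroup V] [Module ℂ V] (ρ : Representation ℂ G V)

/-- fixed points of a subgroup -/
def fixS (H : Subgroup G) : Submodule ℂ V where
  carrier := {v | ∀ a ∈ H, ρ a v = v}
  add_mem' {x y} hx hy a ha := by rw [map_add, hx a ha, hy a ha]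
  zero_mem' a _ := map_zero _
  smul_mem' c x hx a ha := by rw [map_smul, hx a ha]

theorem mem_fixS {H : Subgroup G} {v : V} : v ∈ fixS ρ H ↔ ∀ a ∈ H, ρ a v = v := Iff.rfl

open Classical in
/-- average over a subgroup -/
noncomputable def avg (H : Subgroup G) : V →ₗ[ℂ] V :=
  letI : Fintype H := Fintype.ofFinite H
  (Fintype.card H : ℂ)⁻¹ • ∑ a : H, ρ a

theorem avg_mem (H : Subgroup G) (v : V) : avg ρ H v ∈ fixS ρ H := by
  letI : Fintype H := Fintype.ofFinite H
  intro b hb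
  rw [avg, LinearMap.smul_apply, map_smul, LinearMap.sum_apply, map_sum]
  congr 1
  rw [← Equiv.sum_comp (Equiv.mulLeft (⟨b, hb⟩ : H)) (fun a : H => ρ a v)]
  refine Finset.sum_congr rfl fun a _ => ?_
  change ρ b (ρ a v) = ρ (b * a) v
  rw [map_mul]; rfl

theorem avg_of_fix {H : Subgroup G} {v : V} (hv : v ∈ fixS ρ H) : avg ρ H v = v := by
  letI : Fintype H := Fintype.ofFinite H
  rw [avg, LinearMap.smul_apply, LinearMap.sum_apply,
    Finset.sum_congr rfl (g := fun _ : H => v) (fun (a : H) _ => hv (a : G) a.2),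
    Finset.sum_const, Finset.card_univ, ← Nat.cast_smul_eq_nsmul ℂ, smul_smul, inv_mul_cancel₀, one_smul]
  simp [Fintype.card_ne_zero]

theorem isProj_avg (H : Subgroup G) : LinearMap.IsProj (fixS ρ H) (avg ρ H) :=
  ⟨avg_mem ρ H, fun _ hv => avg_of_fix ρ hv⟩

theorem avg_mul_of_mem {H : Subgroup G} {a : G} (ha : a ∈ H) : avg ρ H * ρ a = avg ρ H := by
  letI : Fintype H := Fintype.ofFinite H
  rw [avg, smul_mul_assoc, Finset.sum_mul]
  congr 1
  rw [← Equiv.sum_comp (Equiv.mulRight (⟨a, ha⟩ : H)) (fun b : H => ρ b)]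
  refine Finset.sum_congr rfl fun b _ => ?_
  change ρ b * ρ a = ρ (b * a)
  rw [map_mul]

theorem mul_avg_of_mem {H : Subgroup G} {a : G} (ha : a ∈ H) : ρ a * avg ρ H = avg ρ H := by
  ext v
  exact avg_mem ρ H v a ha

/-- normalizing elements commute with the average -/
theorem avg_comm {H : Subgroup G} {c : G} (hc : ∀ a, a ∈ H ↔ c * a * c⁻¹ ∈ H) : ρ c * avg ρ H = avg ρ H * ρ c := by
  letI : Fintype H := Fintype.ofFinite H
  rw [avg, smul_mul_assoc, mul_smul_comm, Finset.mul_sum, Finset.sum_mul]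
  congr 1
  let e : H ≃ H :=
    { toFun := fun a => ⟨c * a * c⁻¹, (hc a).1 a.2⟩
      invFun := fun a => ⟨c⁻¹ * a * c, (hc _).2 (by
        have : c * (c⁻¹ * (a : G) * c) * c⁻¹ = a := by group
        rw [this]; exact a.2)⟩
      left_inv := fun a => Subtype.ext (by
        change c⁻¹ * (c * (a : G) * c⁻¹) * c = a
        group)
      right_inv := fun a => Subtype.ext (by
        change c * (c⁻¹ * (a : G) * c) * c⁻¹ = a
        group) }
  rw [← Equiv.sum_comp e (fun a : H => ρ a * ρ c)]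
  refine Finset.sum_congr rfl fun a _ => ?_
  change ρ c * ρ a = ρ (c * a * c⁻¹) * ρ c
  rw [← map_mul, ← map_mul, inv_mul_cancel_right]

/-- operators commuting with generators commute with the average -/
theorem avg_comm_op {S : Set G} {A : V →ₗ[ℂ] V} (h : ∀ a ∈ S, ρ a * A = A * ρ a) :
    avg ρ (Subgroup.closure S) * A = A * avg ρ (Subgroup.closure S) := by
  letI : Fintype (Subgroup.closure S) := Fintype.ofFinite _
  have h1 : ∀ a ∈ Subgroup.closure S, ρ a * A = A * ρ a := by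
    intro a ha
    induction ha using Subgroup.closure_induction with
    | mem x hx => exact h x hx
    | one => rw [map_one, one_mul, mul_one]
    | mul x y _ _ hx hy => rw [map_mul, mul_assoc, hy, ← mul_assoc, hx, mul_assoc]
    | inv x _ hx =>
      have e1 : ρ x⁻¹ * ρ x = 1 := by rw [← map_mul, inv_mul_cancel, map_one]
      have e2 : ρ x * ρ x⁻¹ = 1 := by rw [← map_mul, mul_inv_cancel, map_one]
      calc ρ x⁻¹ * A = ρ x⁻¹ * A * (ρ x * ρ x⁻¹) := by rw [e2, mul_one]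
        _ = ρ x⁻¹ * (A * ρ x) * ρ x⁻¹ := by simp only [mul_assoc]
        _ = ρ x⁻¹ * (ρ x * A) * ρ x⁻¹ := by rw [hx]
        _ = (ρ x⁻¹ * ρ x) * A * ρ x⁻¹ := by simp only [mul_assoc]
        _ = A * ρ x⁻¹ := by rw [e1, one_mul]
  rw [avg, smul_mul_assoc, mul_smul_comm, Finset.mul_sum, Finset.sum_mul]
  congr 1
  exact Finset.sum_congr rfl fun a _ => h1 a a.2

theorem mem_fixS_closure {S : Set G} {v : V} (h : ∀ a ∈ S, ρ a v = v) : v ∈ fixS ρ (Subgroup.closure S) := by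
  intro a ha
  induction ha using Subgroup.closure_induction with
  | mem x hx => exact h x hx
  | one => rw [map_one]; rfl
  | mul x y _ _ hx hy => rw [map_mul, Module.End.mul_apply, hy, hx]
  | inv x _ hx =>
    have e1 : ρ x⁻¹ (ρ x v) = v := by
      rw [← Module.End.mul_apply, ← map_mul, inv_mul_cancel, map_one]; rfl
    rwa [hx] at e1

end general

theorem PP_zero {A V : Type*} [AddCommGroup A] [Fintype A] [AddCommGroup V] [Module ℂ V] (U : A → (V →ₗ[ℂ] V)) :
    PP U 0 = (Fintype.card A : ℂ)⁻¹ • ∑ a, U a := by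
  rw [PP, wtProj]
  congr 1
  refine Finset.sum_congr rfl fun a _ => ?_
  rw [AddChar.zero_apply, one_smul]

variable {ι : Type*} [Fintype ι] [DecidableEq ι] {F : Type*} [Field F] [Fintype F]
variable {V : Type*} [AddCommGroup V] [Module ℂ V] (ρ : Representation ℂ (Matrix.SpecialLinearGroup ι F) V)
variable {ψ : AddChar F ℂ}

/-- projection to the fixed points of the transvections with hyperplane `f` -/
noncomputable def pj (f : ι → F) : V →ₗ[ℂ] V := PP (Uf ρ f) 0

theorem pj_apply_of_fix {f : ι → F} {v : V} (h : ∀ x, f ⬝ᵥ x = 0 → ρ (tt f x) v = v) : pj ρ f v = v :=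
  PP_of_mem (mem_W_zero.2 h)

theorem pj_fix (f : ι → F) (v : V) {x : ι → F} (hx : f ⬝ᵥ x = 0) : ρ (tt f x) (pj ρ f v) = pj ρ f v :=
  mem_W_zero.1 (PP_mem (Uf_add ρ f) 0 v) x hx

theorem tt_mul_pj {f x : ι → F} (hx : f ⬝ᵥ x = 0) : ρ (tt f x) * pj ρ f = pj ρ f := by
  ext v; exact pj_fix ρ f v hx

theorem pj_mul_tt {f x : ι → F} (hx : f ⬝ᵥ x = 0) : pj ρ f * ρ (tt f x) = pj ρ f := by
  rw [pj, PP_zero, smul_mul_assoc, Finset.sum_mul]
  congr 1
  rw [← Equiv.sum_comp (Equiv.addRight (⟨x, hx⟩ : Hy f)) (fun a => Uf ρ f a)]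
  refine Finset.sum_congr rfl fun a _ => ?_
  ext v
  change ρ (tt f a) (ρ (tt f x) v) = Uf ρ f (a + ⟨x, hx⟩) v
  rw [Uf_add]; rfl

theorem pj_mul_pj (f : ι → F) : pj ρ f * pj ρ f = pj ρ f := PP_PP (Uf_add ρ f) 0

/-- the equivalence of hyperplanes -/
def eHy (a : Matrix.SpecialLinearGroup ι F) (f : ι → F) : Hy f ≃ Hy (fn a f) where
  toFun x := ⟨mv a x, by rw [mem_Hy, dot_fn_mv]; exact x.2⟩
  invFun x := ⟨mv a⁻¹ x, by
    rw [mem_Hy, ← dot_fn_mv a, mv_mv_inv]; exact x.2⟩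
  left_inv x := Subtype.ext (mv_inv_mv a x)
  right_inv x := Subtype.ext (mv_mv_inv a x)

theorem pj_conj (a : Matrix.SpecialLinearGroup ι F) (f : ι → F) : ρ a * pj ρ f = pj ρ (fn a f) * ρ a := by
  rw [pj, pj, PP_zero, PP_zero, smul_mul_assoc, mul_smul_comm, Finset.mul_sum, Finset.sum_mul,
    Fintype.card_congr (eHy a f)]
  congr 1
  rw [← Equiv.sum_comp (eHy a f) (fun x => Uf ρ (fn a f) x * ρ a)]
  refine Finset.sum_congr rfl fun x _ => ?_
  change ρ a * ρ (tt f x) = ρ (tt (fn a f) (mv a x)) * ρ a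
  rw [← map_mul, ← map_mul, tt_conj x.2]

theorem pj_smul {c : F} (hc : c ≠ 0) (f : ι → F) : pj ρ (c • f) = pj ρ f := by
  have h1 : ∀ x, f ⬝ᵥ x = 0 → (c • f) ⬝ᵥ x = 0 := fun x hx => by rw [smul_dotProduct, hx, smul_zero]
  have h2 : ∀ x, (c • f) ⬝ᵥ x = 0 → f ⬝ᵥ x = 0 := fun x hx => by
    rw [smul_dotProduct] at hx
    exact (smul_eq_zero.1 hx).resolve_left hc
  let e : Hy f ≃ Hy (c • f) :=
    { toFun := fun x => ⟨c⁻¹ • (x : ι → F), by
        rw [mem_Hy]; apply h1; rw [dotProduct_smul, mem_Hy.1 x.2, smul_zero]⟩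
      invFun := fun x => ⟨c • (x : ι → F), by
        rw [mem_Hy, dotProduct_smul, h2 _ x.2, smul_zero]⟩
      left_inv := fun x => Subtype.ext (by
        change c • c⁻¹ • (x : ι → F) = x
        rw [smul_smul, mul_inv_cancel₀ hc, one_smul])
      right_inv := fun x => Subtype.ext (by
        change c⁻¹ • c • (x : ι → F) = x
        rw [smul_smul, inv_mul_cancel₀ hc, one_smul]) }
  rw [pj, pj, PP_zero, PP_zero, Fintype.card_congr e]
  congr 1
  rw [← Equiv.sum_comp e (fun x => Uf ρ (c • f) x)]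
  refine Finset.sum_congr rfl fun x _ => ?_
  change ρ (tt (c • f) (c⁻¹ • (x : ι → F))) = ρ (tt f x)
  rw [tt_smul (by rw [dotProduct_smul, mem_Hy.1 x.2, smul_zero]), smul_smul, mul_inv_cancel₀ hc, one_smul]

theorem trace_conj (a : Matrix.SpecialLinearGroup ι F) (A B : V →ₗ[ℂ] V) (h : ρ a * A = B * ρ a) :
    LinearMap.trace ℂ V A = LinearMap.trace ℂ V B := by
  have e1 : ρ a⁻¹ * ρ a = 1 := by rw [← map_mul, inv_mul_cancel, map_one]
  have e2 : ρ a * ρ a⁻¹ = 1 := by rw [← map_mul, mul_inv_cancel, map_one]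
  have h1 : A = ρ a⁻¹ * (B * ρ a) := by rw [← h, ← mul_assoc, e1, one_mul]
  rw [h1, LinearMap.trace_mul_comm, mul_assoc, e2, mul_one]

theorem trace_pj [FiniteDimensional ℂ V] (f : ι → F) : LinearMap.trace ℂ V (pj ρ f) = finrank ℂ (wt (Uf ρ f) 0) :=
  trace_PP (Uf_add ρ f) 0

end Cfsg.Agent.LSSL
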