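import Cfsg.Agent.LSSL.Schur

/-!
The dimension formula and the lower bound for `SL_n`.
-/

set_option autoImplicit false
set_option linter.unusedSectionVars false
set_option linter.style.haveILetI false

namespace Cfsg.Agent.LSSL

open Module Matrix Cfsg.Agent.H39 Cfsg.Agent.LSU

variable {ι : Type*} [Fintype ι] [DecidableEq ι] {F : Type*} [Field F] [Fintype F]
variable {V : Type*} [AddCommGroup V] [Module ℂ V] {ρ : Representation ℂ (Matrix.SpecialLinearGroup ι F) V}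
variable {ψ : AddChar F ℂ}

/-- image of the product of two projections -/
theorem pE_mul_pj_pj {f g h : ι → F} (hi : Ind f h) (hh : h ∈ LL f g) (hfg : Ind f g) :
    pE ρ f g * (pj ρ f * pj ρ h) = pj ρ f * pj ρ h := by
  have hL : LL f h = LL f g := LL_eq hfg hi (left_mem_LL f g) hh
  ext v
  rw [Module.End.mul_apply]
  apply avg_of_fix
  apply mem_fixS_closure
  rintro _ ⟨h', hh', x, hx, rfl⟩
  have hfx : f ⬝ᵥ x = 0 := dot_of_mem (left_mem_LL f g) hx
  have hhx : h ⬝ᵥ x = 0 := dot_of_mem hh hx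
  have e1 : ∀ y, f ⬝ᵥ y = 0 → ρ (tt f y) ((pj ρ f * pj ρ h) v) = (pj ρ f * pj ρ h) v := fun y hy => by
    rw [Module.End.mul_apply, pj_fix ρ f _ hy]
  have e2 : ∀ y, f ⬝ᵥ y = 0 → h ⬝ᵥ y = 0 → ρ (tt h y) ((pj ρ f * pj ρ h) v) = (pj ρ f * pj ρ h) v := fun y hy hy' => by
    rw [Module.End.mul_apply]
    have h1 : ρ (tt h y) (pj ρ f (pj ρ h v)) = pj ρ (fn (tt h y) f) (ρ (tt h y) (pj ρ h v)) :=
      congrArg (fun A : V →ₗ[ℂ] V => A (pj ρ h v)) (pj_conj ρ (tt h y) f)
    rw [h1, fn_tt hy', hy, zero_smul, sub_zero, pj_fix ρ h _ hy']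
  rw [← hL] at hh'
  obtain ⟨a, b, rfl⟩ := mem_LL.1 hh'
  rw [tt_add_left (by rw [smul_dotProduct, hfx, smul_zero]) (by rw [smul_dotProduct, hhx, smul_zero]), tt_smul hfx,
    tt_smul hhx, map_mul, Module.End.mul_apply, e2 _ (by rw [dotProduct_smul, hfx, smul_zero])
      (by rw [dotProduct_smul, hhx, smul_zero]), e1 _ (by rw [dotProduct_smul, hfx, smul_zero])]

variable [FiniteDimensional ℂ V]

theorem trace_pj_pE {f g h : ι → F} (hι : 3 ≤ Fintype.card ι) (hi : Ind f g) (hh : h ∈ LL f g) (hh0 : h ≠ 0) :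
    LinearMap.trace ℂ V (pj ρ h * pE ρ f g) = LinearMap.trace ℂ V (pE ρ f g * pj ρ f) := by
  obtain ⟨c, hc, hcf⟩ := exists_Nm hι hi hh hh0
  rw [pj_comm_pE ρ (left_mem_LL f g)]
  symm
  apply trace_conj ρ c
  rw [← mul_assoc, pj_conj, hcf, mul_assoc, pE_comm ρ hc, mul_assoc]

theorem trace_pj_pj (hι : 3 ≤ Fintype.card ι) {f g f' g' : ι → F} (hi : Ind f g) (hi' : Ind f' g') :
    LinearMap.trace ℂ V (pj ρ f * pj ρ g) = LinearMap.trace ℂ V (pj ρ f' * pj ρ g') := by
  obtain ⟨c, hc1, hc2⟩ := exists_pair hι hi hi'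
  apply trace_conj ρ c
  rw [← mul_assoc, pj_conj, hc1, mul_assoc, pj_conj, hc2, mul_assoc]

theorem card_line {f : ι → F} (hf : f ≠ 0) [DecidablePred fun h : ι → F => h ≠ 0 ∧ h ∈ Submodule.span F {f}] :
    (Finset.univ.filter fun h : ι → F => h ≠ 0 ∧ h ∈ Submodule.span F {f}).card = Fintype.card F - 1 := by
  rw [card_submodule_erase, finrank_span_singleton hf, pow_one]

/-- (T1) -/
theorem T1 (hι : 3 ≤ Fintype.card ι) {f g : ι → F} (hi : Ind f g) :
    LinearMap.trace ℂ V (KL ρ f g * (pE ρ f g - pT ρ f g)) =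
      ((Fintype.card F : ℂ) ^ 2 - 1) * (LinearMap.trace ℂ V (pE ρ f g * pj ρ f) - LinearMap.trace ℂ V (pT ρ f g)) := by
  rw [mul_sub, KL_mul_pT ρ hi, map_sub, map_smul, KL, Finset.sum_mul, map_sum,
    Finset.sum_congr rfl (g := fun _ => LinearMap.trace ℂ V (pE ρ f g * pj ρ f))
      (fun h hh => trace_pj_pE hι hi (mem_Om.1 hh).2 (mem_Om.1 hh).1),
    Finset.sum_const, card_Om hi, nsmul_eq_mul, Nat.cast_sub (Nat.one_le_pow _ _ Fintype.card_pos), smul_eq_mul]
  push_cast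
  ring

/-- (T2) -/
theorem T2 (hι : 3 ≤ Fintype.card ι) {f g : ι → F} (hi : Ind f g) :
    LinearMap.trace ℂ V (pj ρ f * (KL ρ f g * (pE ρ f g - pT ρ f g))) =
      ((Fintype.card F : ℂ) - 1) * LinearMap.trace ℂ V (pE ρ f g * pj ρ f) +
      ((Fintype.card F : ℂ) ^ 2 - Fintype.card F) * LinearMap.trace ℂ V (pj ρ f * pj ρ g) -
      ((Fintype.card F : ℂ) ^ 2 - 1) * LinearMap.trace ℂ V (pT ρ f g) := by
  classical
  rw [mul_sub, KL_mul_pT ρ hi, mul_sub, map_sub, mul_smul_comm, pj_mul_pT ρ (left_mem_LL f g), map_smul, smul_eq_mul,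
    KL, Finset.sum_mul, Finset.mul_sum, map_sum]
  congr 1
  have h1 : ∀ h ∈ Om f g, LinearMap.trace ℂ V (pj ρ f * (pj ρ h * pE ρ f g)) =
      if h ∈ Submodule.span F {f} then LinearMap.trace ℂ V (pE ρ f g * pj ρ f)
        else LinearMap.trace ℂ V (pj ρ f * pj ρ g) := by
    intro h hh
    rw [mem_Om] at hh
    split_ifs with hs
    · obtain ⟨c, rfl⟩ := Submodule.mem_span_singleton.1 hs
      have hc : c ≠ 0 := by
        rintro rfl
        exact hh.1 (zero_smul _ _)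
      rw [pj_smul ρ hc, ← mul_assoc, pj_mul_pj, pj_comm_pE ρ (left_mem_LL f g)]
    · have hk : Ind f h := ⟨hi.1, hs⟩
      rw [← pj_comm_pE ρ hh.2, ← mul_assoc, ← pj_comm_pE ρ (left_mem_LL f g), mul_assoc, pE_mul_pj_pj hk hh.2 hi]
      exact trace_pj_pj hι hk hi
  rw [Finset.sum_congr rfl h1, Finset.sum_ite, Finset.sum_const, Finset.sum_const]
  have h2 : (Om f g).filter (fun h => h ∈ Submodule.span F {f}) =
      Finset.univ.filter fun h : ι → F => h ≠ 0 ∧ h ∈ Submodule.span F {f} := by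
    ext h
    rw [Finset.mem_filter, Finset.mem_filter, mem_Om]
    constructor
    · rintro ⟨⟨h1, _⟩, h3⟩
      exact ⟨Finset.mem_univ _, h1, h3⟩
    · rintro ⟨_, h1, h3⟩
      exact ⟨⟨h1, Submodule.span_mono (by simp) h3⟩, h3⟩
  have h3 : ((Om f g).filter (fun h => h ∈ Submodule.span F {f})).card = Fintype.card F - 1 := by
    rw [h2, card_line hi.1]
  have h4 := Finset.card_filter_add_card_filter_not (s := Om f g) (fun h => h ∈ Submodule.span F {f})
  rw [h3, card_Om hi] at h4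
  have hq : 1 ≤ Fintype.card F := Fintype.card_pos
  have hq2 : 1 ≤ Fintype.card F ^ 2 := Nat.one_le_pow _ _ hq
  have h5 : (((Om f g).filter (fun h => ¬ h ∈ Submodule.span F {f})).card : ℂ) =
      (Fintype.card F : ℂ) ^ 2 - Fintype.card F := by
    have h6 : ((Fintype.card F - 1 + ((Om f g).filter (fun h => ¬ h ∈ Submodule.span F {f})).card : ℕ) : ℂ) =
        ((Fintype.card F ^ 2 - 1 : ℕ) : ℂ) := by rw [h4]
    rw [Nat.cast_add, Nat.cast_sub hq, Nat.cast_sub hq2] at h6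
    push_cast at h6
    linear_combination h6
  rw [h3, nsmul_eq_mul, nsmul_eq_mul, h5, Nat.cast_sub hq]
  push_cast
  ring

open Classical in
theorem card_all (ι : Type*) [Fintype ι] [DecidableEq ι] (F : Type*) [Field F] [Fintype F] :
    (Finset.univ.filter (fun h : ι → F => h ≠ 0)).card = Fintype.card F ^ Fintype.card ι - 1 := by
  rw [Finset.filter_ne' Finset.univ (0 : ι → F), Finset.card_erase_of_mem (Finset.mem_univ _), Finset.card_univ,
    Fintype.card_fun]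

/-- (T4) -/
theorem T4 (hι : 3 ≤ Fintype.card ι) {f : ι → F} (hf : f ≠ 0) :
    LinearMap.trace ℂ V (KV ρ) = ((Fintype.card F : ℂ) ^ Fintype.card ι - 1) * finrank ℂ (wt (Uf ρ f) 0) := by
  classical
  rw [KV, map_sum, Finset.sum_congr rfl (g := fun _ => (finrank ℂ (wt (Uf ρ f) 0) : ℂ)), Finset.sum_const, card_all,
    nsmul_eq_mul, Nat.cast_sub (Nat.one_le_pow _ _ Fintype.card_pos)]
  · push_cast; ring
  · intro h hh
    simp only [Finset.mem_filter, Finset.mem_univ, true_and] at hh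
    rw [trace_pj, finrank_zero_eq hι hh hf]

/-- (T5) -/
theorem T5 (hι : 3 ≤ Fintype.card ι) {f g : ι → F} (hi : Ind f g) :
    LinearMap.trace ℂ V (pj ρ f * KV ρ) = ((Fintype.card F : ℂ) - 1) * finrank ℂ (wt (Uf ρ f) 0) +
      ((Fintype.card F : ℂ) ^ Fintype.card ι - Fintype.card F) * LinearMap.trace ℂ V (pj ρ f * pj ρ g) := by
  classical
  rw [KV, Finset.mul_sum, map_sum]
  have h1 : ∀ h ∈ Finset.univ.filter (fun h : ι → F => h ≠ 0), LinearMap.trace ℂ V (pj ρ f * pj ρ h) =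
      if h ∈ Submodule.span F {f} then (finrank ℂ (wt (Uf ρ f) 0) : ℂ)
        else LinearMap.trace ℂ V (pj ρ f * pj ρ g) := by
    intro h hh
    simp only [Finset.mem_filter, Finset.mem_univ, true_and] at hh
    split_ifs with hs
    · obtain ⟨c, rfl⟩ := Submodule.mem_span_singleton.1 hs
      have hc : c ≠ 0 := by
        rintro rfl
        exact hh (zero_smul _ _)
      rw [pj_smul ρ hc, pj_mul_pj, trace_pj]
    · exact trace_pj_pj hι ⟨hi.1, hs⟩ hi
  rw [Finset.sum_congr rfl h1, Finset.sum_ite, Finset.sum_const, Finset.sum_const]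
  have h2 : (Finset.univ.filter (fun h : ι → F => h ≠ 0)).filter (fun h => h ∈ Submodule.span F {f}) =
      Finset.univ.filter fun h : ι → F => h ≠ 0 ∧ h ∈ Submodule.span F {f} := by
    rw [Finset.filter_filter]
  have h3 : ((Finset.univ.filter (fun h : ι → F => h ≠ 0)).filter (fun h => h ∈ Submodule.span F {f})).card =
      Fintype.card F - 1 := by
    rw [h2, card_line hi.1]
  have h4 := Finset.card_filter_add_card_filter_not (s := Finset.univ.filter (fun h : ι → F => h ≠ 0))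
    (fun h => h ∈ Submodule.span F {f})
  rw [h3, card_all] at h4
  have hq : 1 ≤ Fintype.card F := Fintype.card_pos
  have hq2 : 1 ≤ Fintype.card F ^ Fintype.card ι := Nat.one_le_pow _ _ hq
  have h5 : (((Finset.univ.filter (fun h : ι → F => h ≠ 0)).filter (fun h => ¬ h ∈ Submodule.span F {f})).card : ℂ) =
      (Fintype.card F : ℂ) ^ Fintype.card ι - Fintype.card F := by
    have h6 : ((Fintype.card F - 1 + ((Finset.univ.filter (fun h : ι → F => h ≠ 0)).filter
        (fun h => ¬ h ∈ Submodule.span F {f})).card : ℕ) : ℂ) = ((Fintype.card F ^ Fintype.card ι - 1 : ℕ) : ℂ) := by rw [h4]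
    rw [Nat.cast_add, Nat.cast_sub hq, Nat.cast_sub hq2] at h6
    push_cast at h6
    linear_combination h6
  rw [h3, nsmul_eq_mul, nsmul_eq_mul, h5, Nat.cast_sub hq]
  push_cast
  ring

/-- trace of `pE * pj f` as a dimension -/
theorem exists_eX (f g : ι → F) : ∃ eX t : ℕ, t ≤ eX ∧ LinearMap.trace ℂ V (pE ρ f g * pj ρ f) = eX ∧
    LinearMap.trace ℂ V (pT ρ f g) = t := by
  let W1 : Submodule ℂ V := fixS ρ (UB f g) ⊓ wt (Uf ρ f) 0
  have hcomm := pj_comm_pE ρ (left_mem_LL f g)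
  have h1 : LinearMap.IsProj W1 (pE ρ f g * pj ρ f) := by
    refine ⟨fun v => ⟨avg_mem ρ _ _, ?_⟩, fun v hv => ?_⟩
    · rw [hcomm]
      exact PP_mem (Uf_add ρ f) 0 _
    · rw [Module.End.mul_apply, pj, PP_of_mem hv.2]
      exact avg_of_fix ρ hv.1
  have h2 : fixS ρ (NN f g) ≤ W1 := by
    intro v hv
    refine ⟨fun a ha => hv a (UB_le_NN f g ha), mem_W_zero.2 fun x hx => hv _ (tt_mem_NN (left_mem_LL f g) hx)⟩
  exact ⟨finrank ℂ W1, finrank ℂ (fixS ρ (NN f g)), Submodule.finrank_mono h2, h1.trace, (isProj_avg ρ _).trace⟩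

/-- the arithmetic -/
theorem arith {q Q d y : ℕ} (hq : 2 ≤ q) (hQ : q ≤ Q)
    (h : ((y : ℤ) + q - 1) * (q ^ 2 * Q - 1) * d = (d + q * Q - 1) * ((y + q - 1) * q * (Q - 1) + y * (q ^ 2 - 1))) :
    (q : ℤ) * Q - 1 ≤ (q - 1) * d := by
  have hq' : (2 : ℤ) ≤ q := by exact_mod_cast hq
  have hQ' : (q : ℤ) ≤ Q := by exact_mod_cast hQ
  have hd : (0 : ℤ) ≤ d := Int.natCast_nonneg d
  rcases Nat.eq_zero_or_pos y with rfl | hy
  · -- `y = 0`
    exfalso
    have h1 : ((q : ℤ) - 1) * ((q * Q + 1) * ((q - 1) * d)) = (q - 1) * (q * (Q - 1) * (q * Q - 1)) := by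
      push_cast at h
      linear_combination h
    have h2 : ((q : ℤ) * Q + 1) * ((q - 1) * d) = q * (Q - 1) * (q * Q - 1) :=
      mul_left_cancel₀ (by omega : (q : ℤ) - 1 ≠ 0) h1
    have h3 : ((q : ℤ) * Q + 1) ∣ 2 * (q + 1) := by
      refine ⟨(q - 1) * d - (q * (Q - 1)) + 2 - (0 : ℤ), ?_⟩
      linear_combination -h2
    have h4 := Int.le_of_dvd (by positivity) h3
    have h5 : (q : ℤ) * q ≤ q * Q := mul_le_mul_of_nonneg_left hQ' (by omega)
    have h6 : (q : ℤ) = 2 := by nlinarith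
    rw [h6] at h3 h4
    have h7 : (Q : ℤ) = 2 := by omega
    rw [h7] at h3
    norm_num at h3
  · have hy' : (1 : ℤ) ≤ y := by exact_mod_cast hy
    have hs : (0 : ℤ) < y + q - 1 := by omega
    have h1 : ((y : ℤ) + q - 1) * (q ^ 2 * Q - 1) ≤ q * ((y + q - 1) * q * (Q - 1) + y * (q ^ 2 - 1)) := by
      have h2 : (0 : ℤ) ≤ (q - 1) * (y - 1) * (q ^ 2 - 1) := by
        apply mul_nonneg (mul_nonneg (by omega) (by omega))
        nlinarith
      nlinarith
    have hqQ : (0 : ℤ) ≤ d + q * Q - 1 := by nlinarith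
    have h3 : (d + (q : ℤ) * Q - 1) * ((y + q - 1) * (q ^ 2 * Q - 1)) ≤ q * (((y : ℤ) + q - 1) * (q ^ 2 * Q - 1) * d) := by
      rw [h]
      nlinarith [mul_le_mul_of_nonneg_left h1 hqQ]
    have h4 : (0 : ℤ) < (y + q - 1) * (q ^ 2 * Q - 1) := by
      apply mul_pos hs
      nlinarith
    have h5 : (d + (q : ℤ) * Q - 1) ≤ q * d := by
      by_contra hcon
      push Not at hcon
      have := mul_lt_mul_of_pos_right hcon h4
      nlinarith
    linarith

end Cfsg.Agent.LSSL
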