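import Mathlib

/-!
Transvections of `SL(ι, F)` and their action on vectors and functionals.
-/

set_option autoImplicit false
set_option linter.unusedSectionVars false

namespace Cfsg.Agent.LSSL

open Matrix

variable {ι : Type*} [Fintype ι] [DecidableEq ι] {F : Type*} [Field F]

/-- separation -/
theorem exists_sep (S : Submodule F (ι → F)) {g : ι → F} (hg : g ∉ S) :
    ∃ v : ι → F, (∀ s ∈ S, s ⬝ᵥ v = 0) ∧ g ⬝ᵥ v = 1 := by
  obtain ⟨φ, hφ, hS⟩ := Submodule.exists_dual_map_eq_bot_of_notMem hg inferInstance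
  have hrep : ∀ s, φ s = s ⬝ᵥ (fun i => φ (Pi.single i 1)) := by
    intro s
    conv_lhs => rw [← Finset.univ_sum_single s]
    rw [map_sum, dotProduct]
    refine Finset.sum_congr rfl fun i _ => ?_
    have : (Pi.single i (s i) : ι → F) = s i • Pi.single i 1 := by
      rw [← Pi.single_smul, smul_eq_mul, mul_one]
    rw [this, map_smul, smul_eq_mul]
  refine ⟨(φ g)⁻¹ • (fun i => φ (Pi.single i 1)), fun s hs => ?_, ?_⟩
  · rw [dotProduct_smul, ← hrep]
    have : φ s ∈ S.map φ := Submodule.mem_map_of_mem hs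
    rw [hS, Submodule.mem_bot] at this
    rw [this, smul_zero]
  · rw [dotProduct_smul, ← hrep, smul_eq_mul, inv_mul_cancel₀ hφ]

/-- the transvection matrix `1 + x fᵀ` as an element of `SL` -/
def tv (f x : ι → F) (h : f ⬝ᵥ x = 0) : SpecialLinearGroup ι F :=
  ⟨1 + vecMulVec x f, by
    rw [Matrix.vecMulVec_eq Unit, Matrix.det_one_add_replicateCol_mul_replicateRow, h, add_zero]⟩

open Classical in
/-- the transvection `1 + x fᵀ` (if `f ⬝ x = 0`) -/
noncomputable def tt (f x : ι → F) : SpecialLinearGroup ι F := if h : f ⬝ᵥ x = 0 then tv f x h else 1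

/-- action on vectors -/
def mv (a : SpecialLinearGroup ι F) (x : ι → F) : ι → F := (a : Matrix ι ι F) *ᵥ x

/-- action on functionals -/
def fn (a : SpecialLinearGroup ι F) (f : ι → F) : ι → F := f ᵥ* ((a⁻¹ : SpecialLinearGroup ι F) : Matrix ι ι F)

theorem mv_mul (a b : SpecialLinearGroup ι F) (x : ι → F) : mv (a * b) x = mv a (mv b x) := by
  rw [mv, mv, mv, Matrix.SpecialLinearGroup.coe_mul, Matrix.mulVec_mulVec]

theorem mv_one (x : ι → F) : mv (1 : SpecialLinearGroup ι F) x = x := by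
  rw [mv, Matrix.SpecialLinearGroup.coe_one, Matrix.one_mulVec]

theorem mv_inv_mv (a : SpecialLinearGroup ι F) (x : ι → F) : mv a⁻¹ (mv a x) = x := by
  rw [← mv_mul, inv_mul_cancel, mv_one]

theorem mv_mv_inv (a : SpecialLinearGroup ι F) (x : ι → F) : mv a (mv a⁻¹ x) = x := by
  rw [← mv_mul, mul_inv_cancel, mv_one]

theorem mv_add (a : SpecialLinearGroup ι F) (x y : ι → F) : mv a (x + y) = mv a x + mv a y := Matrix.mulVec_add _ _ _
theorem mv_smul (a : SpecialLinearGroup ι F) (c : F) (x : ι → F) : mv a (c • x) = c • mv a x := Matrix.mulVec_smul _ _ _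
theorem mv_zero (a : SpecialLinearGroup ι F) : mv a 0 = 0 := Matrix.mulVec_zero _

theorem mv_ext {a b : SpecialLinearGroup ι F} (h : ∀ x, mv a x = mv b x) : a = b :=
  Subtype.ext (Matrix.ext_of_mulVec_single fun i => h _)

theorem fn_mul (a b : SpecialLinearGroup ι F) (f : ι → F) : fn (a * b) f = fn a (fn b f) := by
  rw [fn, fn, fn, _root_.mul_inv_rev, Matrix.SpecialLinearGroup.coe_mul, Matrix.vecMul_vecMul]

theorem fn_one (f : ι → F) : fn (1 : SpecialLinearGroup ι F) f = f := by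
  rw [fn, inv_one, Matrix.SpecialLinearGroup.coe_one, Matrix.vecMul_one]

theorem fn_inv_fn (a : SpecialLinearGroup ι F) (f : ι → F) : fn a⁻¹ (fn a f) = f := by
  rw [← fn_mul, inv_mul_cancel, fn_one]

theorem fn_fn_inv (a : SpecialLinearGroup ι F) (f : ι → F) : fn a (fn a⁻¹ f) = f := by
  rw [← fn_mul, mul_inv_cancel, fn_one]

theorem fn_add (a : SpecialLinearGroup ι F) (f g : ι → F) : fn a (f + g) = fn a f + fn a g := Matrix.add_vecMul _ _ _
theorem fn_smul (a : SpecialLinearGroup ι F) (c : F) (f : ι → F) : fn a (c • f) = c • fn a f := Matrix.smul_vecMul _ _ _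
theorem fn_zero (a : SpecialLinearGroup ι F) : fn a 0 = 0 := Matrix.zero_vecMul _

theorem fn_ne_zero (a : SpecialLinearGroup ι F) {f : ι → F} (hf : f ≠ 0) : fn a f ≠ 0 := by
  intro h
  apply hf
  rw [← fn_inv_fn a f, h, fn_zero]

theorem dot_fn_mv (a : SpecialLinearGroup ι F) (f x : ι → F) : fn a f ⬝ᵥ mv a x = f ⬝ᵥ x := by
  rw [fn, mv, ← Matrix.dotProduct_mulVec, Matrix.mulVec_mulVec, ← Matrix.SpecialLinearGroup.coe_mul, inv_mul_cancel,
    Matrix.SpecialLinearGroup.coe_one, Matrix.one_mulVec]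

theorem dot_mv (a : SpecialLinearGroup ι F) (f x : ι → F) : f ⬝ᵥ mv a x = fn a⁻¹ f ⬝ᵥ x := by
  rw [← dot_fn_mv a (fn a⁻¹ f) x, fn_fn_inv]

theorem mv_tt {f x : ι → F} (h : f ⬝ᵥ x = 0) (y : ι → F) : mv (tt f x) y = y + (f ⬝ᵥ y) • x := by
  rw [mv, tt, dif_pos h, tv]
  change (1 + vecMulVec x f) *ᵥ y = _
  rw [Matrix.add_mulVec, Matrix.one_mulVec, Matrix.vecMulVec_mulVec]
  congr 1
  exact op_smul_eq_smul _ _

theorem tt_add_right {f x y : ι → F} (hx : f ⬝ᵥ x = 0) (hy : f ⬝ᵥ y = 0) : tt f (x + y) = tt f x * tt f y := by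
  apply mv_ext; intro z
  rw [mv_mul, mv_tt (by rw [dotProduct_add, hx, hy, add_zero]), mv_tt hx, mv_tt hy, dotProduct_add, dotProduct_smul,
    hy, smul_zero, add_zero, smul_add]
  abel

theorem tt_add_left {f g x : ι → F} (hf : f ⬝ᵥ x = 0) (hg : g ⬝ᵥ x = 0) : tt (f + g) x = tt f x * tt g x := by
  apply mv_ext; intro z
  rw [mv_mul, mv_tt (by rw [add_dotProduct, hf, hg, add_zero]), mv_tt hf, mv_tt hg, dotProduct_add, dotProduct_smul,
    hf, smul_zero, add_zero, add_dotProduct, add_smul]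
  abel

theorem tt_zero_right (f : ι → F) : tt f 0 = 1 := by
  apply mv_ext; intro z
  rw [mv_tt (dotProduct_zero _), smul_zero, add_zero, mv_one]

theorem tt_zero_left (x : ι → F) : tt 0 x = 1 := by
  apply mv_ext; intro z
  rw [mv_tt (zero_dotProduct _), zero_dotProduct, zero_smul, add_zero, mv_one]

theorem tt_smul {f x : ι → F} (h : f ⬝ᵥ x = 0) (c : F) : tt (c • f) x = tt f (c • x) := by
  apply mv_ext; intro z
  rw [mv_tt (by rw [smul_dotProduct, h, smul_zero]), mv_tt (by rw [dotProduct_smul, h, smul_zero]), smul_dotProduct,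
    smul_smul, smul_eq_mul, mul_comm]

theorem tt_inv {f x : ι → F} (h : f ⬝ᵥ x = 0) : (tt f x)⁻¹ = tt f (-x) := by
  rw [inv_eq_iff_mul_eq_one, ← tt_add_right h (by rw [dotProduct_neg, h, neg_zero]), add_neg_cancel, tt_zero_right]

theorem fn_tt {f x : ι → F} (h : f ⬝ᵥ x = 0) (k : ι → F) : fn (tt f x) k = k - (k ⬝ᵥ x) • f := by
  have hn : f ⬝ᵥ (-x) = 0 := by rw [dotProduct_neg, h, neg_zero]
  rw [fn, tt_inv h, tt, dif_pos hn, tv]
  change k ᵥ* (1 + vecMulVec (-x) f) = _
  rw [Matrix.vecMul_add, Matrix.vecMul_one, Matrix.vecMul_vecMulVec, dotProduct_neg, neg_smul, sub_eq_add_neg]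

theorem tt_conj {f x : ι → F} (h : f ⬝ᵥ x = 0) (a : SpecialLinearGroup ι F) :
    a * tt f x = tt (fn a f) (mv a x) * a := by
  apply mv_ext; intro z
  rw [mv_mul, mv_mul, mv_tt h, mv_tt (by rw [dot_fn_mv, h]), mv_add, mv_smul, dot_fn_mv]

/-- independence of two functionals -/
def Ind (f g : ι → F) : Prop := f ≠ 0 ∧ g ∉ Submodule.span F {f}

theorem Ind.symm {f g : ι → F} (h : Ind f g) : Ind g f := by
  refine ⟨fun h0 => h.2 (by rw [h0]; exact zero_mem _), fun h1 => ?_⟩
  obtain ⟨c, hc⟩ := Submodule.mem_span_singleton.1 h1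
  have hc0 : c ≠ 0 := by
    rintro rfl
    rw [zero_smul] at hc
    exact h.1 hc.symm
  apply h.2
  rw [Submodule.mem_span_singleton]
  exact ⟨c⁻¹, by rw [← hc, smul_smul, inv_mul_cancel₀ hc0, one_smul]⟩

theorem Ind.ne {f g : ι → F} (h : Ind f g) : g ≠ 0 := h.symm.1

theorem Ind.fn {f g : ι → F} (h : Ind f g) (a : SpecialLinearGroup ι F) : Ind (fn a f) (fn a g) := by
  refine ⟨fn_ne_zero a h.1, fun h1 => h.2 ?_⟩
  obtain ⟨c, hc⟩ := Submodule.mem_span_singleton.1 h1
  rw [Submodule.mem_span_singleton]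
  refine ⟨c, ?_⟩
  have := congrArg (LSSL.fn a⁻¹) hc
  rwa [fn_smul, fn_inv_fn, fn_inv_fn] at this

theorem Ind.smul {f g : ι → F} (h : Ind f g) {c : F} (hc : c ≠ 0) : Ind f (c • g) := by
  refine ⟨h.1, fun h1 => h.2 ?_⟩
  have := Submodule.smul_mem _ c⁻¹ h1
  rwa [smul_smul, inv_mul_cancel₀ hc, one_smul] at this

theorem ind_of_comb {f g : ι → F} (h : Ind f g) {a b : F} (hb : b ≠ 0) : Ind f (a • f + b • g) := by
  refine ⟨h.1, fun h1 => h.2 ?_⟩
  have h2 : b • g ∈ Submodule.span F {f} := by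
    have := Submodule.sub_mem _ h1 (Submodule.smul_mem _ a (Submodule.mem_span_singleton_self f))
    rwa [add_sub_cancel_left] at this
  have := Submodule.smul_mem _ b⁻¹ h2
  rwa [smul_smul, inv_mul_cancel₀ hb, one_smul] at this

/-- one step: move `g` to `g'` fixing `f` -/
theorem exists_step {f g g' : ι → F} (hfg : Ind f g) (h : g' ∉ Submodule.span F {f, g}) :
    ∃ a : SpecialLinearGroup ι F, fn a f = f ∧ fn a g = g' := by
  have h1 : g ∉ Submodule.span F {f, g' - g} := by
    intro h2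
    obtain ⟨α, β, hαβ⟩ := Submodule.mem_span_pair.1 h2
    by_cases hβ : β = 0
    · apply hfg.2
      rw [Submodule.mem_span_singleton]
      exact ⟨α, by rw [← hαβ, hβ, zero_smul, add_zero]⟩
    · apply h
      rw [Submodule.mem_span_pair]
      refine ⟨-β⁻¹ * α, β⁻¹ + 1, ?_⟩
      have h3 : β • g' = g + β • g - α • f := by
        have h0 : α • f + β • (g' - g) - g = 0 := by rw [hαβ, sub_self]
        have h00 : β • g' - (g + β • g - α • f) = α • f + β • (g' - g) - g := by module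
        rw [← sub_eq_zero, h00, h0]
      have h4 : g' = β⁻¹ • (g + β • g - α • f) := by rw [← h3, smul_smul, inv_mul_cancel₀ hβ, one_smul]
      rw [h4]
      have h5 : β⁻¹ * β = 1 := inv_mul_cancel₀ hβ
      rw [smul_sub, smul_add, smul_smul, smul_smul, h5]
      module
  obtain ⟨x, hx, hgx⟩ := exists_sep _ h1
  have hfx : f ⬝ᵥ x = 0 := hx f (Submodule.subset_span (by simp))
  have hdx : (g' - g) ⬝ᵥ x = 0 := hx (g' - g) (Submodule.subset_span (by simp))
  have hdx' : (g' - g) ⬝ᵥ (-x) = 0 := by rw [dotProduct_neg, hdx, neg_zero]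
  refine ⟨tt (g' - g) (-x), ?_, ?_⟩
  · rw [fn_tt hdx', dotProduct_neg, hfx, neg_zero, zero_smul, sub_zero]
  · rw [fn_tt hdx', dotProduct_neg, hgx, neg_smul, one_smul]
    abel

theorem exists_notMem_pair (hι : 3 ≤ Fintype.card ι) (f g : ι → F) : ∃ h, h ∉ Submodule.span F {f, g} := by
  by_contra hcon
  push Not at hcon
  have h1 : Submodule.span F {f, g} = ⊤ := by
    rw [eq_top_iff]; intro x _; exact hcon x
  classical
  have h2 : Module.finrank F (Submodule.span F ((({f, g} : Finset (ι → F)) : Set (ι → F)))) ≤ ({f, g} : Finset (ι → F)).card :=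
    finrank_span_finset_le_card _
  have h3 : (({f, g} : Finset (ι → F)) : Set (ι → F)) = {f, g} := by simp
  rw [h3, h1, finrank_top, Module.finrank_fintype_fun_eq_card] at h2
  have h4 := Finset.card_le_two (a := f) (b := g)
  omega

theorem exists_fix {f g g' : ι → F} (hι : 3 ≤ Fintype.card ι) (hfg : Ind f g) (hfg' : Ind f g') :
    ∃ a : SpecialLinearGroup ι F, fn a f = f ∧ fn a g = g' := by
  by_cases h : g' ∈ Submodule.span F {f, g}
  · obtain ⟨k, hk⟩ := exists_notMem_pair hι f g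
    obtain ⟨a, ha1, ha2⟩ := exists_step hfg hk
    have hfk : Ind f k := ⟨hfg.1, fun h1 => hk (Submodule.span_mono (by simp) h1)⟩
    have hk' : g' ∉ Submodule.span F {f, k} := by
      intro h1
      obtain ⟨α, β, hαβ⟩ := Submodule.mem_span_pair.1 h1
      by_cases hβ : β = 0
      · apply hfg'.2
        rw [Submodule.mem_span_singleton]
        exact ⟨α, by rw [← hαβ, hβ, zero_smul, add_zero]⟩
      · apply hk
        have h2 : k = β⁻¹ • (g' - α • f) := by
          rw [← hαβ, add_sub_cancel_left, smul_smul, inv_mul_cancel₀ hβ, one_smul]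
        rw [h2]
        exact Submodule.smul_mem _ _ (Submodule.sub_mem _ h (Submodule.smul_mem _ _ (Submodule.subset_span (by simp))))
    obtain ⟨b, hb1, hb2⟩ := exists_step hfk hk'
    exact ⟨b * a, by rw [fn_mul, ha1, hb1], by rw [fn_mul, ha2, hb2]⟩
  · exact exists_step hfg h

theorem exists_ind {f : ι → F} (hι : 2 ≤ Fintype.card ι) (hf : f ≠ 0) : ∃ g, Ind f g := by
  by_contra hcon
  push Not at hcon
  have h0 : ∀ g, g ∈ Submodule.span F {f} := by
    intro g
    by_contra h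
    exact hcon g ⟨hf, h⟩
  have h1 : Submodule.span F {f} = ⊤ := by
    rw [eq_top_iff]; intro x _; exact h0 x
  have h2 : Module.finrank F (Submodule.span F {f}) = 1 := finrank_span_singleton hf
  rw [h1, finrank_top, Module.finrank_fintype_fun_eq_card] at h2
  omega

theorem exists_move {f f' : ι → F} (hι : 3 ≤ Fintype.card ι) (hf : f ≠ 0) (hf' : f' ≠ 0) :
    ∃ a : SpecialLinearGroup ι F, fn a f = f' := by
  by_cases h : Ind f f'
  · -- `f, f'` independent: use a third functional as fixed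
    obtain ⟨k, hk⟩ := exists_notMem_pair hι f f'
    have hkf : Ind k f := by
      apply Ind.symm
      exact ⟨hf, fun h1 => hk (Submodule.span_mono (by simp) h1)⟩
    have hkf' : Ind k f' := by
      apply Ind.symm
      exact ⟨hf', fun h1 => hk (Submodule.span_mono (by simp) h1)⟩
    obtain ⟨a, _, ha⟩ := exists_fix hι hkf hkf'
    exact ⟨a, ha⟩
  · have h1 : f' ∈ Submodule.span F {f} := by
      by_contra h2
      exact h ⟨hf, h2⟩
    obtain ⟨k, hk⟩ := exists_ind (by omega) hf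
    have hkf : Ind k f := hk.symm
    have hkf' : Ind k f' := by
      obtain ⟨c, hc⟩ := Submodule.mem_span_singleton.1 h1
      have hc0 : c ≠ 0 := by
        rintro rfl
        rw [zero_smul] at hc
        exact hf' hc.symm
      rw [← hc]
      exact hkf.smul hc0
    obtain ⟨a, _, ha⟩ := exists_fix hι hkf hkf'
    exact ⟨a, ha⟩

/-- transitivity on pairs of independent functionals -/
theorem exists_pair {f g f' g' : ι → F} (hι : 3 ≤ Fintype.card ι) (h : Ind f g) (h' : Ind f' g') :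
    ∃ a : SpecialLinearGroup ι F, fn a f = f' ∧ fn a g = g' := by
  obtain ⟨a, ha⟩ := exists_move hι h.1 h'.1
  have h1 : Ind f' (fn a g) := by rw [← ha]; exact h.fn a
  obtain ⟨b, hb1, hb2⟩ := exists_fix hι h1 h'
  exact ⟨b * a, by rw [fn_mul, ha, hb1], by rw [fn_mul, hb2]⟩

end Cfsg.Agent.LSSL
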