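import Cfsg.Agent.LSSL.Final
import Cfsg.Agent.LSU.Irr
import Cfsg.Agent.ClassBase.SL

/-!
The lower bound for the degrees of nontrivial irreducible representations of `SL_n`.
-/

set_option autoImplicit false
set_option linter.unusedSectionVars false
set_option linter.style.haveILetI false

namespace Cfsg.Agent.LSSL

open Module Matrix Cfsg.Agent.H39 Cfsg.Agent.LSU

variable {ι : Type*} [Fintype ι] [DecidableEq ι] {F : Type*} [Field F] [Fintype F]
variable {V : Type*} [AddCommGroup V] [Module ℂ V] {ρ : Representation ℂ (Matrix.SpecialLinearGroup ι F) V}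
variable {ψ : AddChar F ℂ} [FiniteDimensional ℂ V]

theorem card_BB' (hι : 3 ≤ Fintype.card ι) {f g : ι → F} (hi : Ind f g) :
    Fintype.card F ≤ Fintype.card (BB f g) ∧
      Fintype.card F ^ Fintype.card ι = Fintype.card F ^ 2 * Fintype.card (BB f g) := by
  have h1 := card_Hy hi.1
  rw [← card_BB hi] at h1
  have h2 : Fintype.card F ^ Fintype.card ι = Fintype.card F ^ 2 * Fintype.card (BB f g) := by
    rw [← h1]; ring
  refine ⟨?_, h2⟩
  obtain ⟨m, hm⟩ : ∃ m, Fintype.card ι = m + 3 := ⟨Fintype.card ι - 3, by omega⟩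
  have h3 : Fintype.card F ^ 2 * Fintype.card (BB f g) = Fintype.card F ^ 2 * (Fintype.card F ^ (m + 1)) := by
    rw [← h2, hm]; ring
  have hq : 0 < Fintype.card F ^ 2 := pow_pos Fintype.card_pos 2
  have h4 := Nat.eq_of_mul_eq_mul_left hq h3
  rw [h4, pow_succ]
  exact Nat.le_mul_of_pos_left _ (pow_pos Fintype.card_pos m)

theorem bound_one (H : Hyp ρ ψ) (hirr : ρ.IsIrreducible) [Nontrivial V] :
    (Fintype.card F ^ Fintype.card ι - Fintype.card F) / (Fintype.card F - 1) ≤ finrank ℂ V := by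
  classical
  haveI : Nonempty ι := Fintype.card_pos_iff.1 (by have := H.hι; omega)
  obtain ⟨f, hf⟩ : ∃ f : ι → F, f ≠ 0 := exists_ne 0
  obtain ⟨g, hi⟩ := exists_ind (by have := H.hι; omega) hf
  obtain ⟨hQ, hpow⟩ := card_BB' H.hι hi
  have hD := finrank_eq (ρ := ρ) H.hι H.hψ hi
  rw [H.one f g hi, mul_one, ← card_BB hi] at hD
  set d := finrank ℂ (wt (Uf ρ f) 0) with hd
  set q := Fintype.card F with hq
  set Q := Fintype.card (BB f g) with hQdef
  have hq2 : 2 ≤ q := Fintype.one_lt_card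
  obtain ⟨eX, t, hte, heX, ht⟩ := exists_eX (ρ := ρ) f g
  have h1 := trace_pE_pj H hi
  have h2 := trace_pE H hi
  rw [heX] at h1 h2
  obtain ⟨κ, hκ⟩ := exists_kappa H hi
  obtain ⟨lam, hlam⟩ := exists_lambda hirr
  have hT1 := T1 (ρ := ρ) H.hι hi
  have hT2 := T2 (ρ := ρ) H.hι hi
  have hT4 := T4 (ρ := ρ) H.hι hi.1
  have hT5 := T5 (ρ := ρ) H.hι hi
  set τ := LinearMap.trace ℂ V (pj ρ f * pj ρ g) with hτ
  rw [hκ, map_smul, map_sub, heX, ht, smul_eq_mul, h2] at hT1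
  rw [hκ, mul_smul_comm, map_smul, mul_sub, map_sub, pj_mul_pT ρ (left_mem_LL f g), ← pj_comm_pE ρ (left_mem_LL f g),
    heX, ht, smul_eq_mul] at hT2
  rw [hlam, map_smul, LinearMap.trace_one, smul_eq_mul, ← hd, ← hq] at hT4
  rw [hlam, mul_smul_comm, mul_one, map_smul, trace_pj, smul_eq_mul, ← hd, ← hq] at hT5
  obtain ⟨y, hy⟩ : ∃ y, eX = t + y := ⟨eX - t, by omega⟩
  have hDc : (finrank ℂ V : ℂ) = d + q * Q - 1 := by
    rw [hD, Nat.cast_add, Nat.cast_sub (by nlinarith)]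
    push_cast; ring
  have hpc : (q : ℂ) ^ Fintype.card ι = q ^ 2 * Q := by
    have := congrArg (fun n : ℕ => (n : ℂ)) hpow
    push_cast at this
    exact this
  rw [hDc, hpc] at hT4
  rw [hpc] at hT5
  have hdc : (d : ℂ) = t + y + Q - 1 := by
    have : ((eX : ℕ) : ℂ) = t + y := by rw [hy]; push_cast; ring
    linear_combination h1.symm + this
  have heXc : (eX : ℂ) = t + y := by rw [hy]; push_cast; ring
  rw [heXc] at hT1 hT2
  -- eliminate `lam` and `κ`
  have e1 : ((d : ℂ) + q * Q - 1) * ((q - 1) * d + (q ^ 2 * Q - q) * τ) = (q ^ 2 * Q - 1) * d ^ 2 := by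
    linear_combination (-(d + q * Q - 1) : ℂ) * hT5 + (d : ℂ) * hT4
  have e2 : ((y : ℂ) + q - 1) * ((q - 1) * (t + y) + (q ^ 2 - q) * τ - (q ^ 2 - 1) * t) = (q ^ 2 - 1) * y ^ 2 := by
    linear_combination (-(y + q - 1) : ℂ) * hT2 + (y : ℂ) * hT1
  have e3 : (q : ℂ) * (q - 1) * (q * Q - 1) * (((y : ℂ) + q - 1) * (q ^ 2 * Q - 1) * d -
      (d + q * Q - 1) * ((y + q - 1) * q * (Q - 1) + y * (q ^ 2 - 1))) = 0 := by
    have h3 : ((y : ℂ) + q - 1) * (q ^ 2 - q) * (((d : ℂ) + q * Q - 1) * ((q - 1) * d + (q ^ 2 * Q - q) * τ) -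
        (q ^ 2 * Q - 1) * d ^ 2) - (d + q * Q - 1) * (q ^ 2 * Q - q) * (((y : ℂ) + q - 1) *
        ((q - 1) * (t + y) + (q ^ 2 - q) * τ - (q ^ 2 - 1) * t) - (q ^ 2 - 1) * y ^ 2) = 0 := by
      rw [e1, e2]; ring
    rw [← h3, hdc]
    ring
  have hq0 : (q : ℂ) ≠ 0 := by
    have : q ≠ 0 := by omega
    exact_mod_cast this
  have hq1 : (q : ℂ) - 1 ≠ 0 := by
    have : q - 1 ≠ 0 := by omega
    have h3 : ((q - 1 : ℕ) : ℂ) ≠ 0 := by exact_mod_cast this
    rwa [Nat.cast_sub (by omega), Nat.cast_one] at h3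
  have hqQ : (q : ℂ) * Q - 1 ≠ 0 := by
    have h4 : 4 ≤ q * Q := by nlinarith
    have : q * Q - 1 ≠ 0 := by omega
    have h3 : ((q * Q - 1 : ℕ) : ℂ) ≠ 0 := by exact_mod_cast this
    rwa [Nat.cast_sub (by omega), Nat.cast_one, Nat.cast_mul] at h3
  have e4 := (mul_eq_zero.1 e3).resolve_left (mul_ne_zero (mul_ne_zero hq0 hq1) hqQ)
  rw [sub_eq_zero] at e4
  have e5 : ((y : ℤ) + q - 1) * (q ^ 2 * Q - 1) * d = (d + q * Q - 1) * ((y + q - 1) * q * (Q - 1) + y * (q ^ 2 - 1)) := by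
    exact_mod_cast e4
  have h6 := arith hq2 hQ e5
  apply Nat.div_le_of_le_mul
  rw [hpow, hD]
  obtain ⟨p, hp⟩ : ∃ p, q = p + 1 := ⟨q - 1, by omega⟩
  rw [hp, Nat.add_sub_cancel]
  rw [hp] at h6
  have h7 : 1 ≤ Q * (p + 1) := by nlinarith
  obtain ⟨R, hR⟩ : ∃ R, Q * (p + 1) = R + 1 := ⟨Q * (p + 1) - 1, by omega⟩
  rw [hR, Nat.add_sub_cancel]
  have h8 : (p + 1) ^ 2 * Q = (p + 1) * (R + 1) := by rw [← hR]; ring
  rw [h8]
  have h9 : (p + 1) * (R + 1) - (p + 1) = (p + 1) * R := by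
    rw [mul_add, mul_one, Nat.add_sub_cancel]
  rw [h9]
  have h10 : (R : ℤ) ≤ p * d := by
    have h11 : ((Q * (p + 1) : ℕ) : ℤ) = R + 1 := by rw [hR]; push_cast; rfl
    push_cast at h6 h11
    linarith
  have h12 : R ≤ p * d := by exact_mod_cast h10
  nlinarith

/-- a representation in which one group of transvections is trivial is trivial -/
theorem trivial_of_top (hι : 3 ≤ Fintype.card ι) {f : ι → F} (hf : f ≠ 0) (h : wt (Uf ρ f) 0 = ⊤) :
    ∀ g v, ρ g v = v := by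
  classical
  haveI : Nontrivial ι := Fintype.one_lt_card_iff_nontrivial.1 (by omega)
  have h1 : ∀ f' : ι → F, f' ≠ 0 → wt (Uf ρ f') 0 = ⊤ := by
    intro f' hf'
    apply Submodule.eq_top_of_finrank_eq
    rw [← finrank_zero_eq hι hf hf', h, finrank_top]
  have h2 : MonoidHom.ker ρ = ⊤ := by
    rw [eq_top_iff, ← ClassBase.closure_transvections, Subgroup.closure_le]
    rintro _ ⟨i, j, hij, a, rfl⟩
    rw [SetLike.mem_coe, MonoidHom.mem_ker]
    have h3 : (Pi.single j 1 : ι → F) ⬝ᵥ (Pi.single i a) = 0 := by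
      rw [single_dotProduct, one_mul, Pi.single_apply, if_neg hij.symm]
    have h4 : Matrix.SpecialLinearGroup.transvection hij a = tt (Pi.single j 1 : ι → F) (Pi.single i a) := by
      apply mv_ext
      intro x
      rw [mv_tt h3]
      change (Matrix.SpecialLinearGroup.transvection hij a : Matrix ι ι F) *ᵥ x = _
      rw [ClassBase.transvection_mulVec_apply, single_dotProduct, one_mul, ← Pi.single_smul, smul_eq_mul, mul_comm]
    rw [h4]
    ext v
    have h5 : v ∈ wt (Uf ρ (Pi.single j 1 : ι → F)) 0 := by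
      rw [h1 _ (by
        intro h0
        have := congrFun h0 j
        rw [Pi.single_eq_same] at this
        exact one_ne_zero this)]
      exact Submodule.mem_top
    exact mem_W_zero.1 h5 _ h3
  intro g v
  have h3 : g ∈ MonoidHom.ker ρ := by rw [h2]; trivial
  rw [MonoidHom.mem_ker.1 h3]; rfl

theorem bound (hι : 3 ≤ Fintype.card ι)
    (h3 : Fintype.card ι = 3 → Fintype.card F ≠ 2 ∧ Fintype.card F ≠ 4)
    (h4 : Fintype.card ι = 4 → Fintype.card F ≠ 2 ∧ Fintype.card F ≠ 3)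
    (hirr : ρ.IsIrreducible) (hnt : ∃ g v, ρ g v ≠ v) :
    (Fintype.card F ^ Fintype.card ι - Fintype.card F) / (Fintype.card F - 1) ≤ finrank ℂ V := by
  classical
  haveI : Nonempty ι := Fintype.card_pos_iff.1 (by omega)
  haveI : Nontrivial V := by
    obtain ⟨g, v, hgv⟩ := hnt
    exact ⟨_, _, hgv⟩
  obtain ⟨ψ, hψ⟩ : ∃ ψ : AddChar F ℂ, ψ ≠ 0 := by
    haveI : Nontrivial (AddChar F ℂ) := by
      rw [← Fintype.one_lt_card_iff_nontrivial, AddChar.card_eq]
      exact Fintype.one_lt_card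
    exact exists_ne 0
  obtain ⟨f, hf⟩ : ∃ f : ι → F, f ≠ 0 := exists_ne 0
  obtain ⟨g, hi⟩ := exists_ind (by omega) hf
  have hD := finrank_eq (ρ := ρ) hι hψ hi
  by_cases hm1 : finrank ℂ (Wf ρ ψ f g) = 1
  · exact bound_one ⟨hι, h3, h4, hψ, fun f' h' hi' => by rw [finrank_W_eq hι hi' hi, hm1]⟩ hirr
  · have hm0 : finrank ℂ (Wf ρ ψ f g) ≠ 0 := by
      intro h0
      rw [h0, mul_zero, add_zero] at hD
      have h5 := trivial_of_top (ρ := ρ) hι hf (Submodule.eq_top_of_finrank_eq hD.symm)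
      obtain ⟨g, v, hgv⟩ := hnt
      exact hgv (h5 g v)
    have hm2 : 2 ≤ finrank ℂ (Wf ρ ψ f g) := by omega
    obtain ⟨hQ, hpow⟩ := card_BB' hι hi
    apply Nat.div_le_of_le_mul
    rw [hD, ← card_BB hi, hpow]
    set q := Fintype.card F with hq
    set Q := Fintype.card (BB f g) with hQdef
    have hq2 : 2 ≤ q := Fintype.one_lt_card
    obtain ⟨p, hp⟩ : ∃ p, q = p + 1 := ⟨q - 1, by omega⟩
    rw [hp, Nat.add_sub_cancel]
    have h7 : 1 ≤ Q * (p + 1) := by nlinarith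
    obtain ⟨R, hR⟩ : ∃ R, Q * (p + 1) = R + 1 := ⟨Q * (p + 1) - 1, by omega⟩
    rw [hR, Nat.add_sub_cancel]
    have h8 : (p + 1) ^ 2 * Q = (p + 1) * (R + 1) := by rw [← hR]; ring
    rw [h8]
    have h9 : (p + 1) * (R + 1) - (p + 1) = (p + 1) * R := by
      rw [mul_add, mul_one, Nat.add_sub_cancel]
    rw [h9]
    have h10 : R * 2 ≤ R * finrank ℂ (Wf ρ ψ f g) := Nat.mul_le_mul_left _ hm2
    have hp1 : 1 ≤ p := by omega
    calc (p + 1) * R ≤ p * (R * 2) := by nlinarith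
      _ ≤ p * (finrank ℂ (wt (Uf ρ f) 0) + R * finrank ℂ (Wf ρ ψ f g)) := Nat.mul_le_mul_left _ (by omega)

end Cfsg.Agent.LSSL
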