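import Cfsg.Agent.LSSL.Avg

/-!
The unipotent radical of the stabilizer of a plane of functionals.
-/

set_option autoImplicit false
set_option linter.unusedSectionVars false
set_option linter.style.haveILetI false

namespace Cfsg.Agent.LSSL

open Module Matrix Cfsg.Agent.H39 Cfsg.Agent.LSU

variable {ι : Type*} [Fintype ι] [DecidableEq ι] {F : Type*} [Field F] [Fintype F]

/-- the plane of functionals -/
def LL (f g : ι → F) : Submodule F (ι → F) := Submodule.span F {f, g}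

/-- the common kernel -/
def BB (f g : ι → F) : Submodule F (ι → F) := Hy f ⊓ Hy g

noncomputable instance fintypeBB (f g : ι → F) : Fintype (BB f g) := Fintype.ofFinite _

theorem left_mem_LL (f g : ι → F) : f ∈ LL f g := Submodule.subset_span (by simp)
theorem right_mem_LL (f g : ι → F) : g ∈ LL f g := Submodule.subset_span (by simp)

theorem mem_LL {f g h : ι → F} : h ∈ LL f g ↔ ∃ a b : F, a • f + b • g = h := Submodule.mem_span_pair

theorem mem_BB {f g x : ι → F} : x ∈ BB f g ↔ f ⬝ᵥ x = 0 ∧ g ⬝ᵥ x = 0 := Iff.rfl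

theorem dot_of_mem {f g h x : ι → F} (hh : h ∈ LL f g) (hx : x ∈ BB f g) : h ⬝ᵥ x = 0 := by
  obtain ⟨a, b, rfl⟩ := mem_LL.1 hh
  rw [add_dotProduct, smul_dotProduct, smul_dotProduct, hx.1, hx.2, smul_zero, smul_zero, add_zero]

theorem mem_BB_iff {f g x : ι → F} : x ∈ BB f g ↔ ∀ h ∈ LL f g, h ⬝ᵥ x = 0 :=
  ⟨fun hx _ hh => dot_of_mem hh hx, fun h => ⟨h f (left_mem_LL f g), h g (right_mem_LL f g)⟩⟩

theorem finrank_LL {f g : ι → F} (h : Ind f g) : finrank F (LL f g) = 2 := by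
  have hli : LinearIndependent F ![f, g] := by
    rw [LinearIndependent.pair_iff' h.1]
    intro a ha
    exact h.2 (Submodule.mem_span_singleton.2 ⟨a, ha⟩)
  have h1 := finrank_span_eq_card hli
  rw [Fintype.card_fin] at h1
  have h2 : Set.range ![f, g] = {f, g} := by simp [Set.pair_comm]
  rw [h2] at h1
  exact h1

theorem LL_eq {f g f' g' : ι → F} (h : Ind f g) (h' : Ind f' g') (hf : f' ∈ LL f g) (hg : g' ∈ LL f g) :
    LL f' g' = LL f g := by
  apply Submodule.eq_of_le_of_finrank_eq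
  · rw [LL, Submodule.span_le]
    intro z hz
    rcases hz with rfl | hz
    · exact hf
    · rw [Set.mem_singleton_iff] at hz
      rw [hz]; exact hg
  · rw [finrank_LL h, finrank_LL h']

theorem exists_psi_ne' {W : Type*} [AddCommGroup W] [Module F W] {ψ : AddChar F ℂ} (hψ : ψ ≠ 0) (l : W →ₗ[F] F) (hl : l ≠ 0) :
    ∃ w, ψ (l w) ≠ 1 := by
  obtain ⟨c, hc⟩ := exists_psi_ne hψ
  obtain ⟨w, rfl⟩ := LinearMap.surjective hl c
  exact ⟨w, hc⟩

theorem card_BB {f g : ι → F} (h : Ind f g) : Fintype.card (BB f g) * Fintype.card F = Fintype.card (Hy f) := by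
  let φ : Hy f →ₗ[F] F :=
    { toFun := fun x => g ⬝ᵥ (x : ι → F)
      map_add' := fun a b => dotProduct_add _ _ _
      map_smul' := fun c a => dotProduct_smul _ _ _ }
  obtain ⟨v, hv, hgv⟩ := exists_sep _ h.2
  have hfv : f ⬝ᵥ v = 0 := hv f (Submodule.mem_span_singleton_self f)
  have hne : φ ≠ 0 := by
    intro h0
    have : φ ⟨v, hfv⟩ = 0 := by rw [h0]; rfl
    exact one_ne_zero (hgv.symm.trans this)
  have hsurj : Function.Surjective φ := LinearMap.surjective hne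
  have h1 := LinearMap.finrank_range_add_finrank_ker φ
  rw [LinearMap.range_eq_top.2 hsurj, finrank_top, finrank_self] at h1
  have h2 : BB f g = (LinearMap.ker φ).map (Hy f).subtype := by
    ext x
    rw [Submodule.mem_map]
    constructor
    · intro hx
      exact ⟨⟨x, hx.1⟩, hx.2, rfl⟩
    · rintro ⟨y, hy, rfl⟩
      exact ⟨y.2, hy⟩
  have h3 : finrank F (BB f g) = finrank F (LinearMap.ker φ) := by
    rw [h2, Submodule.finrank_map_subtype_eq]
  rw [Module.card_eq_pow_finrank (K := F) (V := BB f g), Module.card_eq_pow_finrank (K := F) (V := Hy f), ← pow_succ]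
  congr 1
  omega

/-- elements preserving the plane -/
def Nm (f g : ι → F) (c : Matrix.SpecialLinearGroup ι F) : Prop := ∀ h, fn c h ∈ LL f g ↔ h ∈ LL f g

theorem Nm.inv {f g : ι → F} {c : Matrix.SpecialLinearGroup ι F} (hc : Nm f g c) : Nm f g c⁻¹ := by
  intro h
  rw [← hc (fn c⁻¹ h), fn_fn_inv]

theorem Nm.mv {f g : ι → F} {c : Matrix.SpecialLinearGroup ι F} (hc : Nm f g c) {x : ι → F} (hx : x ∈ BB f g) :
    mv c x ∈ BB f g := by
  rw [mem_BB_iff] at hx ⊢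
  intro h hh
  rw [dot_mv]
  exact hx _ ((hc.inv h).2 hh)

theorem Nm_tt {f g h x : ι → F} (hh : h ∈ LL f g) (hx : h ⬝ᵥ x = 0) : Nm f g (tt h x) := by
  intro k
  rw [fn_tt hx]
  constructor
  · intro h1
    have := Submodule.add_mem _ h1 (Submodule.smul_mem _ (k ⬝ᵥ x) hh)
    rwa [sub_add_cancel] at this
  · intro h1
    exact Submodule.sub_mem _ h1 (Submodule.smul_mem _ _ hh)

theorem Nm_of_pair {f g : ι → F} (h : Ind f g) {c : Matrix.SpecialLinearGroup ι F} (hf : fn c f ∈ LL f g)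
    (hg : fn c g ∈ LL f g) : Nm f g c := by
  have hL := LL_eq h (h.fn c) hf hg
  intro k
  constructor
  · intro h1
    rw [← hL] at h1
    obtain ⟨a, b, hab⟩ := mem_LL.1 h1
    rw [← fn_smul, ← fn_smul, ← fn_add] at hab
    have := congrArg (LSSL.fn c⁻¹) hab
    rw [fn_inv_fn, fn_inv_fn] at this
    rw [← this]
    exact mem_LL.2 ⟨a, b, rfl⟩
  · intro h1
    obtain ⟨a, b, rfl⟩ := mem_LL.1 h1
    rw [fn_add, fn_smul, fn_smul]
    exact Submodule.add_mem _ (Submodule.smul_mem _ _ hf) (Submodule.smul_mem _ _ hg)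

/-- the unipotent radical -/
def UB (f g : ι → F) : Subgroup (Matrix.SpecialLinearGroup ι F) :=
  Subgroup.closure {a | ∃ h ∈ LL f g, ∃ x ∈ BB f g, a = tt h x}

/-- the group generated by the transvections with functional in the plane -/
def NN (f g : ι → F) : Subgroup (Matrix.SpecialLinearGroup ι F) :=
  Subgroup.closure {a | ∃ h ∈ LL f g, ∃ x, h ⬝ᵥ x = 0 ∧ a = tt h x}

theorem tt_mem_UB {f g h x : ι → F} (hh : h ∈ LL f g) (hx : x ∈ BB f g) : tt h x ∈ UB f g :=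
  Subgroup.subset_closure ⟨h, hh, x, hx, rfl⟩

theorem tt_mem_NN {f g h x : ι → F} (hh : h ∈ LL f g) (hx : h ⬝ᵥ x = 0) : tt h x ∈ NN f g :=
  Subgroup.subset_closure ⟨h, hh, x, hx, rfl⟩

theorem UB_le_NN (f g : ι → F) : UB f g ≤ NN f g := by
  rw [UB, Subgroup.closure_le]
  rintro _ ⟨h, hh, x, hx, rfl⟩
  exact tt_mem_NN hh (dot_of_mem hh hx)

theorem closure_conj {G : Type*} [Group G] {S : Set G} {c : G} (h : ∀ a ∈ S, c * a * c⁻¹ ∈ Subgroup.closure S) :
    ∀ a ∈ Subgroup.closure S, c * a * c⁻¹ ∈ Subgroup.closure S := by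
  intro a ha
  induction ha using Subgroup.closure_induction with
  | mem x hx => exact h x hx
  | one => rw [mul_one, mul_inv_cancel]; exact one_mem _
  | mul x y _ _ hx hy =>
    have : c * (x * y) * c⁻¹ = (c * x * c⁻¹) * (c * y * c⁻¹) := by group
    rw [this]; exact mul_mem hx hy
  | inv x _ hx =>
    have : c * x⁻¹ * c⁻¹ = (c * x * c⁻¹)⁻¹ := by group
    rw [this]; exact inv_mem hx

theorem closure_conj_iff {G : Type*} [Group G] {S : Set G} {c : G} (h : ∀ a ∈ S, c * a * c⁻¹ ∈ Subgroup.closure S)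
    (h' : ∀ a ∈ S, c⁻¹ * a * c⁻¹⁻¹ ∈ Subgroup.closure S) :
    ∀ a, a ∈ Subgroup.closure S ↔ c * a * c⁻¹ ∈ Subgroup.closure S := by
  intro a
  refine ⟨closure_conj h a, fun ha => ?_⟩
  have := closure_conj h' _ ha
  have e : c⁻¹ * (c * a * c⁻¹) * c⁻¹⁻¹ = a := by group
  rwa [e] at this

theorem tt_conj' {h x : ι → F} (hx : h ⬝ᵥ x = 0) (c : Matrix.SpecialLinearGroup ι F) :
    c * tt h x * c⁻¹ = tt (fn c h) (mv c x) := by
  rw [tt_conj hx, mul_inv_cancel_right]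

theorem Nm.UB {f g : ι → F} {c : Matrix.SpecialLinearGroup ι F} (hc : Nm f g c) :
    ∀ a, a ∈ UB f g ↔ c * a * c⁻¹ ∈ UB f g := by
  have h1 : ∀ c, Nm f g c → ∀ a ∈ {a | ∃ h ∈ LL f g, ∃ x ∈ BB f g, a = tt h x}, c * a * c⁻¹ ∈ LSSL.UB f g := by
    rintro c hc _ ⟨h, hh, x, hx, rfl⟩
    rw [tt_conj' (dot_of_mem hh hx)]
    exact tt_mem_UB ((hc h).2 hh) (hc.mv hx)
  exact closure_conj_iff (h1 c hc) (h1 c⁻¹ hc.inv)

theorem Nm.NN {f g : ι → F} {c : Matrix.SpecialLinearGroup ι F} (hc : Nm f g c) :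
    ∀ a, a ∈ NN f g ↔ c * a * c⁻¹ ∈ NN f g := by
  have h1 : ∀ c, Nm f g c → ∀ a ∈ {a | ∃ h ∈ LL f g, ∃ x, h ⬝ᵥ x = 0 ∧ a = tt h x}, c * a * c⁻¹ ∈ LSSL.NN f g := by
    rintro c hc _ ⟨h, hh, x, hx, rfl⟩
    rw [tt_conj' hx]
    exact tt_mem_NN ((hc h).2 hh) (by rw [dot_fn_mv, hx])
  exact closure_conj_iff (h1 c hc) (h1 c⁻¹ hc.inv)

variable {V : Type*} [AddCommGroup V] [Module ℂ V] (ρ : Representation ℂ (Matrix.SpecialLinearGroup ι F) V)
variable {ψ : AddChar F ℂ}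

/-- projection to the fixed points of the unipotent radical -/
noncomputable def pE (f g : ι → F) : V →ₗ[ℂ] V := avg ρ (UB f g)
/-- projection to the fixed points of `NN` -/
noncomputable def pT (f g : ι → F) : V →ₗ[ℂ] V := avg ρ (NN f g)

theorem pE_comm {f g : ι → F} {c : Matrix.SpecialLinearGroup ι F} (hc : Nm f g c) : ρ c * pE ρ f g = pE ρ f g * ρ c :=
  avg_comm ρ hc.UB

theorem pT_comm {f g : ι → F} {c : Matrix.SpecialLinearGroup ι F} (hc : Nm f g c) : ρ c * pT ρ f g = pT ρ f g * ρ c :=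
  avg_comm ρ hc.NN

theorem pj_comm_pE {f g h : ι → F} (hh : h ∈ LL f g) : pE ρ f g * pj ρ h = pj ρ h * pE ρ f g := by
  apply avg_comm_op
  rintro _ ⟨h', hh', x, hx, rfl⟩
  rw [pj_conj, fn_tt (dot_of_mem hh' hx), dot_of_mem hh hx, zero_smul, sub_zero]

theorem pj_mul_pT {f g h : ι → F} (hh : h ∈ LL f g) : pj ρ h * pT ρ f g = pT ρ f g := by
  ext v
  exact pj_apply_of_fix ρ fun x hx => avg_mem ρ (NN f g) v _ (tt_mem_NN hh hx)

theorem pT_mul_pj {f g h : ι → F} (hh : h ∈ LL f g) : pT ρ f g * pj ρ h = pT ρ f g := by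
  rw [pj, PP_zero, mul_smul_comm, Finset.mul_sum, Finset.sum_congr rfl (g := fun _ => pT ρ f g), Finset.sum_const,
    Finset.card_univ, ← Nat.cast_smul_eq_nsmul ℂ, smul_smul, inv_mul_cancel₀ (cardA_ne _), one_smul]
  intro x _
  exact avg_mul_of_mem ρ (tt_mem_NN hh x.2)

theorem pE_mul_pT (f g : ι → F) : pE ρ f g * pT ρ f g = pT ρ f g := by
  ext v
  exact avg_of_fix ρ fun a ha => avg_mem ρ (NN f g) v a (UB_le_NN f g ha)

theorem pT_mul_pE (f g : ι → F) : pT ρ f g * pE ρ f g = pT ρ f g := by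
  letI : Fintype (UB f g) := Fintype.ofFinite _
  have h1 : ∀ a : UB f g, pT ρ f g * ρ (a : Matrix.SpecialLinearGroup ι F) = pT ρ f g := fun a =>
    avg_mul_of_mem ρ (UB_le_NN f g a.2)
  rw [pE, avg, mul_smul_comm, Finset.mul_sum, Finset.sum_congr rfl (g := fun _ => pT ρ f g) (fun a _ => h1 a),
    Finset.sum_const, Finset.card_univ, ← Nat.cast_smul_eq_nsmul ℂ, smul_smul, inv_mul_cancel₀, one_smul]
  simp [Fintype.card_ne_zero]

theorem pE_mul_pE (f g : ι → F) : pE ρ f g * pE ρ f g = pE ρ f g := by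
  ext v
  exact avg_of_fix ρ (avg_mem ρ _ v)

theorem pT_mul_pT (f g : ι → F) : pT ρ f g * pT ρ f g = pT ρ f g := by
  ext v
  exact avg_of_fix ρ (avg_mem ρ _ v)

/-- a vector fixed by the two standard parts is fixed by `UB` -/
theorem mem_fix_UB {f g : ι → F} {v : V} (h1 : ∀ x ∈ BB f g, ρ (tt f x) v = v) (h2 : ∀ x ∈ BB f g, ρ (tt g x) v = v) :
    v ∈ fixS ρ (UB f g) := by
  apply mem_fixS_closure
  rintro _ ⟨h, hh, x, hx, rfl⟩
  obtain ⟨a, b, rfl⟩ := mem_LL.1 hh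
  have e1 : f ⬝ᵥ x = 0 := hx.1
  have e2 : g ⬝ᵥ x = 0 := hx.2
  rw [tt_add_left (by rw [smul_dotProduct, e1, smul_zero]) (by rw [smul_dotProduct, e2, smul_zero]), tt_smul e1,
    tt_smul e2, map_mul, Module.End.mul_apply, h2 _ (Submodule.smul_mem _ _ hx), h1 _ (Submodule.smul_mem _ _ hx)]

theorem tt_comm {f g x y : ι → F} (hfx : f ⬝ᵥ x = 0) (hfy : f ⬝ᵥ y = 0) (hgx : g ⬝ᵥ x = 0) (hgy : g ⬝ᵥ y = 0) :
    tt f x * tt g y = tt g y * tt f x := by
  rw [tt_conj hgy, fn_tt hfx, hgx, zero_smul, sub_zero, mv_tt hfx, hfy, zero_smul, add_zero]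

/-- `pE * pj f` as an average -/
theorem pE_mul_pj (f g : ι → F) :
    pE ρ f g * pj ρ f = (Fintype.card (BB f g) : ℂ)⁻¹ • ∑ y : BB f g, ρ (tt g y) * pj ρ f := by
  ext v
  set w := pj ρ f v with hw
  set u := ((Fintype.card (BB f g) : ℂ)⁻¹ • ∑ y : BB f g, ρ (tt g y) * pj ρ f) v with hu
  have hu' : u = (Fintype.card (BB f g) : ℂ)⁻¹ • ∑ y : BB f g, ρ (tt g y) w := by
    rw [hu, LinearMap.smul_apply, LinearMap.sum_apply]; rfl
  have hfix : u ∈ fixS ρ (UB f g) := by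
    apply mem_fix_UB
    · intro x hx
      rw [hu', map_smul, map_sum]
      congr 1
      refine Finset.sum_congr rfl fun y _ => ?_
      rw [← Module.End.mul_apply, ← map_mul, tt_comm hx.1 y.2.1 hx.2 y.2.2, map_mul, Module.End.mul_apply, hw,
        pj_fix ρ f v hx.1]
    · intro x hx
      rw [hu', map_smul, map_sum, ← Equiv.sum_comp (Equiv.addLeft (⟨x, hx⟩ : BB f g)) (fun y : BB f g => ρ (tt g y) w)]
      congr 1
      refine Finset.sum_congr rfl fun y _ => ?_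
      change ρ (tt g x) (ρ (tt g y) w) = ρ (tt g (x + y)) w
      rw [tt_add_right hx.2 y.2.2, map_mul]; rfl
  have h1 : pE ρ f g u = pE ρ f g w := by
    rw [hu', map_smul, map_sum, Finset.sum_congr rfl (g := fun _ => pE ρ f g w), Finset.sum_const, Finset.card_univ,
      ← Nat.cast_smul_eq_nsmul ℂ, smul_smul, inv_mul_cancel₀ (cardA_ne _), one_smul]
    intro y _
    rw [← Module.End.mul_apply, pE, avg_mul_of_mem ρ (tt_mem_UB (right_mem_LL f g) y.2)]
  rw [Module.End.mul_apply, ← hw, ← h1, pE, avg_of_fix ρ hfix]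

section traces
variable [FiniteDimensional ℂ V]

/-- hypotheses of the induction free argument -/
structure Hyp (ρ : Representation ℂ (Matrix.SpecialLinearGroup ι F) V) (ψ : AddChar F ℂ) : Prop where
  hι : 3 ≤ Fintype.card ι
  h3 : Fintype.card ι = 3 → Fintype.card F ≠ 2 ∧ Fintype.card F ≠ 4
  h4 : Fintype.card ι = 4 → Fintype.card F ≠ 2 ∧ Fintype.card F ≠ 3
  hψ : ψ ≠ 0
  one : ∀ f h : ι → F, Ind f h → finrank ℂ (Wf ρ ψ f h) = 1

variable {ρ}

theorem Hyp.fix (H : Hyp ρ ψ) {f h g y : ι → F} (hi : Ind f h) (hfy : f ⬝ᵥ y = 0) (hhy : h ⬝ᵥ y = 0)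
    (hgy : g ⬝ᵥ y = 0) : ∀ v ∈ Wf ρ ψ f h, ρ (tt g y) v = v :=
  fix_tt H.hι H.h3 H.h4 (H.one f h hi).le hfy hhy hgy

theorem sum_shift {A W : Type*} [AddCommGroup A] [Fintype A] [AddCommGroup W] [Fintype W] (l : W →+ A)
    (hl : ∀ w, l w = 0 → w = 0) : ∑ φ : AddChar A ℂ, ∑ w : W, φ (l w) = Fintype.card A := by
  classical
  rw [Finset.sum_comm, Finset.sum_eq_single (0 : W)]
  · rw [map_zero]
    simp [AddChar.card_eq]
  · intro w _ hw
    rw [AddChar.sum_apply_eq_ite, if_neg (fun h => hw (hl w h))]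
  · intro h; exact absurd (Finset.mem_univ _) h

/-- (G1) -/
theorem trace_tt_pj (H : Hyp ρ ψ) {f g y : ι → F} (hi : Ind f g) (hy : y ∈ BB f g) (hy0 : y ≠ 0) :
    LinearMap.trace ℂ V (ρ (tt g y) * pj ρ f) = (finrank ℂ (wt (Uf ρ f) 0) : ℂ) - Fintype.card (BB f g) := by
  classical
  have hfy : f ⬝ᵥ y = 0 := hy.1
  have hgy : g ⬝ᵥ y = 0 := hy.2
  have h1 := trace_eq_sum (U := Uf ρ f) (Uf_zero ρ f) (ρ (tt g y))
  have h2 := trace_tt (ρ := ρ) H.hι H.hψ hi.symm hgy hy0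
  rw [H.one _ _ hi.symm, finrank_zero_eq (ρ := ρ) H.hι hi.ne hi.1] at h2
  let l : F →+ Hy f :=
    { toFun := fun c => ⟨c • y, by rw [mem_Hy, dotProduct_smul, hfy, smul_zero]⟩
      map_zero' := Subtype.ext (zero_smul _ _)
      map_add' := fun a b => Subtype.ext (add_smul _ _ _) }
  have hl : ∀ c, l c = 0 → c = 0 := by
    intro c hc
    have h3 : c • y = 0 := congrArg Subtype.val hc
    exact (smul_eq_zero.1 h3).resolve_right hy0
  have h3 : ∀ φ ∈ Finset.univ.erase (0 : AddChar (Hy f) ℂ), LinearMap.trace ℂ V (ρ (tt g y) * PP (Uf ρ f) φ) =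
      (Fintype.card F : ℂ)⁻¹ * ∑ c : F, φ (l c) := by
    intro φ hφ
    obtain ⟨k, rfl⟩ := exists_ch H.hψ f φ
    have hk : Ind f k := ⟨hi.1, fun h1 => (Finset.ne_of_mem_erase hφ) ((ch_zero_iff H.hψ).2 h1)⟩
    by_cases hky : k ⬝ᵥ y = 0
    · rw [trace_mul_PP_of_smul (Uf_add ρ f) (c := 1) (fun v hv => by
        rw [one_smul]; exact H.fix hk hfy hky hgy v hv)]
      have e : finrank ℂ (wt (Uf ρ f) (ch ψ f k)) = 1 := H.one f k hk
      rw [e]
      have h4 : ∀ c : F, ch ψ f k (l c) = 1 := by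
        intro c
        rw [ch_apply]
        change ψ (k ⬝ᵥ (c • y)) = 1
        rw [dotProduct_smul, hky, smul_zero, AddChar.map_zero_eq_one]
      rw [Finset.sum_congr rfl fun c _ => h4 c]
      simp [Fintype.card_ne_zero]
    · have h4 : ∑ c : F, ch ψ f k (l c) = 0 := by
        have h5 : ∀ c : F, ch ψ f k (l c) = (ψ.mulShift (k ⬝ᵥ y)) c := by
          intro c
          rw [ch_apply, AddChar.mulShift_apply]
          change ψ (k ⬝ᵥ (c • y)) = _
          rw [dotProduct_smul, smul_eq_mul, mul_comm]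
        rw [Finset.sum_congr rfl fun c _ => h5 c, AddChar.sum_eq_ite, if_neg]
        have hprim := AddChar.IsPrimitive.of_ne_one (ψ := ψ) (by rw [AddChar.one_eq_zero]; exact H.hψ)
        have := hprim hky
        rwa [AddChar.one_eq_zero] at this
      rw [h4, mul_zero]
      refine trace_mul_PP_of_map (Uf_add ρ f) (φ := ch ψ f (k - (k ⬝ᵥ y) • g)) ?_ ?_
      · rw [ne_eq, ch_eq_iff H.hψ, sub_sub_cancel]
        intro h5
        have h6 := Submodule.smul_mem _ (k ⬝ᵥ y)⁻¹ h5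
        rw [smul_smul, inv_mul_cancel₀ hky, one_smul] at h6
        exact hi.2 h6
      · intro v hv
        have h5 := (Wf_conj (ρ := ρ) (ψ := ψ) (tt g y) (f := f) (h := k)).2 hv
        rw [fn_tt hgy, fn_tt hgy, hfy, zero_smul, sub_zero] at h5
        exact h5
  rw [← Finset.add_sum_erase _ _ (Finset.mem_univ 0), Finset.sum_congr rfl h3, ← Finset.mul_sum] at h1
  have h4 := sum_shift l hl
  rw [← Finset.add_sum_erase _ _ (Finset.mem_univ 0)] at h4
  have h5 : ∑ c : F, (0 : AddChar (Hy f) ℂ) (l c) = Fintype.card F := by simp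
  rw [h5] at h4
  have h6 : (Fintype.card (Hy f) : ℂ) = Fintype.card (BB f g) * Fintype.card F := by
    rw [← card_BB hi]; push_cast; rfl
  rw [h6] at h4
  have hq : (Fintype.card F : ℂ) ≠ 0 := by simp [Fintype.card_ne_zero]
  have h7 : ∑ φ ∈ Finset.univ.erase (0 : AddChar (Hy f) ℂ), ∑ c : F, φ (l c) =
      (Fintype.card F : ℂ) * (Fintype.card (BB f g) - 1) := by linear_combination h4
  rw [h2, h7, ← mul_assoc, inv_mul_cancel₀ hq, one_mul] at h1
  change _ = LinearMap.trace ℂ V (ρ (tt g y) * pj ρ f) + _ at h1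
  push_cast at h1
  linear_combination -h1

/-- (G2) -/
theorem trace_pE_pj (H : Hyp ρ ψ) {f g : ι → F} (hi : Ind f g) :
    LinearMap.trace ℂ V (pE ρ f g * pj ρ f) = (finrank ℂ (wt (Uf ρ f) 0) : ℂ) - Fintype.card (BB f g) + 1 := by
  classical
  have h0 : ((0 : BB f g) : ι → F) = 0 := rfl
  rw [pE_mul_pj, map_smul, map_sum, ← Finset.add_sum_erase _ _ (Finset.mem_univ (0 : BB f g)), h0, tt_zero_right, map_one,
    one_mul, trace_pj, Finset.sum_congr rfl
      (g := fun _ => (finrank ℂ (wt (Uf ρ f) 0) : ℂ) - Fintype.card (BB f g)), Finset.sum_const,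
    Finset.card_erase_of_mem (Finset.mem_univ _), Finset.card_univ, nsmul_eq_mul, Nat.cast_sub Fintype.card_pos,
    smul_eq_mul]
  · have hq := cardA_ne (BB f g)
    field_simp
    push_cast
    ring
  · intro y hy
    exact trace_tt_pj H hi y.2 (fun h => (Finset.ne_of_mem_erase hy) (Subtype.ext h))

/-- a functional vanishing on `BB` is in the plane -/
theorem mem_LL_of_BB {f g k : ι → F} (h : ∀ x ∈ BB f g, k ⬝ᵥ x = 0) : k ∈ LL f g := by
  by_contra hcon
  obtain ⟨v, hv, hkv⟩ := exists_sep _ hcon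
  rw [h v (mem_BB_iff.2 hv)] at hkv
  exact zero_ne_one hkv

theorem Wf_le_fix (H : Hyp ρ ψ) {f g k : ι → F} (hk : Ind f k) (hkL : k ∈ LL f g) :
    ∀ v ∈ Wf ρ ψ f k, v ∈ fixS ρ (UB f g) := by
  intro v hv
  apply mem_fix_UB
  · intro x hx
    rw [mem_Wf.1 hv x hx.1, dot_of_mem hkL hx, AddChar.map_zero_eq_one, one_smul]
  · intro x hx
    exact H.fix hk hx.1 (dot_of_mem hkL hx) hx.2 v hv

theorem pE_Wf_zero (hψ : ψ ≠ 0) {f g k : ι → F} (hkL : k ∉ LL f g) : ∀ v ∈ Wf ρ ψ f k, pE ρ f g v = 0 := by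
  intro v hv
  have : ∃ x ∈ BB f g, k ⬝ᵥ x ≠ 0 := by
    by_contra hcon
    push Not at hcon
    exact hkL (mem_LL_of_BB hcon)
  obtain ⟨x, hx, hkx⟩ := this
  obtain ⟨c, hc⟩ := exists_psi_ne hψ
  have hx' : (c * (k ⬝ᵥ x)⁻¹) • x ∈ BB f g := Submodule.smul_mem _ _ hx
  have h1 := mem_Wf.1 hv _ hx'.1
  rw [dotProduct_smul, smul_eq_mul, inv_mul_cancel_right₀ hkx] at h1
  have h2 : pE ρ f g (ρ (tt f ((c * (k ⬝ᵥ x)⁻¹) • x)) v) = pE ρ f g v := by
    rw [← Module.End.mul_apply, pE, avg_mul_of_mem ρ (tt_mem_UB (left_mem_LL f g) hx')]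
  rw [h1, map_smul] at h2
  have h3 : (ψ c - 1) • pE ρ f g v = 0 := by rw [sub_smul, one_smul, h2, sub_self]
  exact (smul_eq_zero.1 h3).resolve_left (sub_ne_zero.2 hc)

/-- (G3) -/
theorem trace_pE (H : Hyp ρ ψ) {f g : ι → F} (hi : Ind f g) :
    LinearMap.trace ℂ V (pE ρ f g) = LinearMap.trace ℂ V (pE ρ f g * pj ρ f) + (Fintype.card F - 1) := by
  classical
  let l : BB f g →+ Hy f :=
    { toFun := fun x => ⟨x, x.2.1⟩
      map_zero' := rfl
      map_add' := fun a b => rfl }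
  have hl : ∀ x, l x = 0 → x = 0 := by
    intro x hx
    have h3 : (x : ι → F) = 0 := congrArg Subtype.val hx
    exact Subtype.ext h3
  have h1 := trace_eq_sum (U := Uf ρ f) (Uf_zero ρ f) (pE ρ f g)
  have h3 : ∀ φ ∈ Finset.univ.erase (0 : AddChar (Hy f) ℂ), LinearMap.trace ℂ V (pE ρ f g * PP (Uf ρ f) φ) =
      (Fintype.card (BB f g) : ℂ)⁻¹ * ∑ x : BB f g, φ (l x) := by
    intro φ hφ
    obtain ⟨k, rfl⟩ := exists_ch H.hψ f φ
    have hk : Ind f k := ⟨hi.1, fun h1 => (Finset.ne_of_mem_erase hφ) ((ch_zero_iff H.hψ).2 h1)⟩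
    by_cases hkL : k ∈ LL f g
    · rw [trace_mul_PP_of_smul (Uf_add ρ f) (c := 1) (fun v hv => by
        rw [one_smul]; exact avg_of_fix ρ (Wf_le_fix H hk hkL v hv))]
      have e : finrank ℂ (wt (Uf ρ f) (ch ψ f k)) = 1 := H.one f k hk
      rw [e]
      have h4 : ∀ x : BB f g, ch ψ f k (l x) = 1 := by
        intro x
        rw [ch_apply]
        change ψ (k ⬝ᵥ (x : ι → F)) = 1
        rw [dot_of_mem hkL x.2, AddChar.map_zero_eq_one]
      rw [Finset.sum_congr rfl fun x _ => h4 x]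
      simp [Fintype.card_ne_zero]
    · have h4 : ∑ x : BB f g, ch ψ f k (l x) = 0 := by
        let χ : AddChar (BB f g) ℂ :=
          { toFun := fun x => ψ (k ⬝ᵥ (x : ι → F))
            map_zero_eq_one' := by
              change ψ (k ⬝ᵥ (0 : ι → F)) = 1
              rw [dotProduct_zero, AddChar.map_zero_eq_one]
            map_add_eq_mul' := fun a b => by
              change ψ (k ⬝ᵥ ((a : ι → F) + b)) = _
              rw [dotProduct_add, AddChar.map_add_eq_mul] }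
        have h5 : ∑ x : BB f g, ch ψ f k (l x) = ∑ x, χ x := rfl
        rw [h5, AddChar.sum_eq_ite, if_neg]
        intro h6
        apply hkL
        apply mem_LL_of_BB
        intro x hx
        by_contra hkx
        obtain ⟨c, hc⟩ := exists_psi_ne H.hψ
        apply hc
        have h7 := DFunLike.congr_fun h6 (⟨(c * (k ⬝ᵥ x)⁻¹) • x, Submodule.smul_mem _ _ hx⟩ : BB f g)
        change ψ (k ⬝ᵥ ((c * (k ⬝ᵥ x)⁻¹) • x)) = 1 at h7
        rwa [dotProduct_smul, smul_eq_mul, inv_mul_cancel_right₀ hkx] at h7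
      rw [h4, mul_zero, trace_mul_PP_of_smul (Uf_add ρ f) (c := 0) (fun v hv => by
        rw [zero_smul]; exact pE_Wf_zero H.hψ hkL v hv), zero_mul]
  rw [← Finset.add_sum_erase _ _ (Finset.mem_univ 0), Finset.sum_congr rfl h3, ← Finset.mul_sum] at h1
  have h4 := sum_shift l hl
  rw [← Finset.add_sum_erase _ _ (Finset.mem_univ 0)] at h4
  have h5 : ∑ x : BB f g, (0 : AddChar (Hy f) ℂ) (l x) = Fintype.card (BB f g) := by simp
  rw [h5] at h4
  have h6 : (Fintype.card (Hy f) : ℂ) = Fintype.card (BB f g) * Fintype.card F := by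
    rw [← card_BB hi]; push_cast; rfl
  rw [h6] at h4
  have hq := cardA_ne (BB f g)
  have h7 : ∑ φ ∈ Finset.univ.erase (0 : AddChar (Hy f) ℂ), ∑ x : BB f g, φ (l x) =
      (Fintype.card (BB f g) : ℂ) * (Fintype.card F - 1) := by linear_combination h4
  rw [h7, ← mul_assoc, inv_mul_cancel₀ hq, one_mul] at h1
  exact h1

end traces

end Cfsg.Agent.LSSL
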