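import Cfsg.Agent.LSSL.Wt
import Cfsg.Agent.LSSL.Lin

/-!
Weights of the groups of transvections with fixed hyperplane in representations of `SL(ι, F)`.
-/

set_option autoImplicit false
set_option linter.unusedSectionVars false

namespace Cfsg.Agent.LSSL

open Module Matrix Cfsg.Agent.H39 Cfsg.Agent.LSU

variable {ι : Type*} [Fintype ι] [DecidableEq ι] {F : Type*} [Field F] [Fintype F]

/-- the hyperplane of a functional -/
def Hy (f : ι → F) : Submodule F (ι → F) where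
  carrier := {x | f ⬝ᵥ x = 0}
  add_mem' {a b} ha hb := by
    change f ⬝ᵥ (a + b) = 0
    rw [dotProduct_add, ha, hb, add_zero]
  zero_mem' := dotProduct_zero f
  smul_mem' c x hx := by
    change f ⬝ᵥ (c • x) = 0
    rw [dotProduct_smul, hx, smul_zero]

theorem mem_Hy {f x : ι → F} : x ∈ Hy f ↔ f ⬝ᵥ x = 0 := Iff.rfl

noncomputable instance fintypeHy (f : ι → F) : Fintype (Hy f) := Fintype.ofFinite _

theorem card_Hy {f : ι → F} (hf : f ≠ 0) : Fintype.card (Hy f) * Fintype.card F = Fintype.card F ^ Fintype.card ι := by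
  classical
  let φ : (ι → F) →ₗ[F] F := { toFun := fun x => f ⬝ᵥ x, map_add' := dotProduct_add f, map_smul' := fun c x => dotProduct_smul c f x }
  have hker : LinearMap.ker φ = Hy f := by
    ext x; exact Iff.rfl
  have hne : φ ≠ 0 := by
    intro h
    obtain ⟨v, _, hv⟩ := exists_sep (⊥ : Submodule F (ι → F)) (g := f) (by simpa using hf)
    have : φ v = 0 := by rw [h]; rfl
    exact one_ne_zero (hv.symm.trans this)
  have hsurj : Function.Surjective φ := LinearMap.surjective hne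
  have h1 := LinearMap.finrank_range_add_finrank_ker φ
  rw [LinearMap.range_eq_top.2 hsurj, finrank_top, finrank_self, hker, finrank_fintype_fun_eq_card] at h1
  rw [Module.card_eq_pow_finrank (K := F) (V := Hy f), ← pow_succ]
  congr 1
  omega

/-- the character of `Hy f` given by a functional -/
def ch (ψ : AddChar F ℂ) (f h : ι → F) : AddChar (Hy f) ℂ where
  toFun x := ψ (h ⬝ᵥ (x : ι → F))
  map_zero_eq_one' := by
    change ψ (h ⬝ᵥ (0 : ι → F)) = 1
    rw [dotProduct_zero, AddChar.map_zero_eq_one]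
  map_add_eq_mul' a b := by
    change ψ (h ⬝ᵥ ((a : ι → F) + b)) = _
    rw [dotProduct_add, AddChar.map_add_eq_mul]

theorem ch_apply (ψ : AddChar F ℂ) (f h : ι → F) (x : Hy f) : ch ψ f h x = ψ (h ⬝ᵥ (x : ι → F)) := rfl

theorem exists_ch {ψ : AddChar F ℂ} (hψ : ψ ≠ 0) (f : ι → F) (φ : AddChar (Hy f) ℂ) : ∃ h, φ = ch ψ f h := by
  obtain ⟨l, hl⟩ := exists_linear hψ φ
  obtain ⟨L, hL⟩ := LinearMap.exists_extend l
  refine ⟨fun i => L (Pi.single i 1), ?_⟩
  ext x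
  rw [ch_apply, hl]
  congr 1
  have h1 : l x = L x := by rw [← hL]; rfl
  rw [h1]
  conv_lhs => rw [← Finset.univ_sum_single (x : ι → F)]
  rw [map_sum, dotProduct]
  refine Finset.sum_congr rfl fun i _ => ?_
  have : (Pi.single i ((x : ι → F) i) : ι → F) = (x : ι → F) i • Pi.single i 1 := by
    rw [← Pi.single_smul, smul_eq_mul, mul_one]
  rw [this, map_smul, smul_eq_mul, mul_comm]

theorem exists_psi_ne {ψ : AddChar F ℂ} (hψ : ψ ≠ 0) : ∃ c, ψ c ≠ 1 := by
  by_contra hcon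
  push Not at hcon
  apply hψ
  ext c
  rw [hcon, AddChar.zero_apply]

theorem ch_zero_iff {ψ : AddChar F ℂ} (hψ : ψ ≠ 0) {f h : ι → F} : ch ψ f h = 0 ↔ h ∈ Submodule.span F {f} := by
  constructor
  · intro h0
    by_contra hcon
    obtain ⟨v, hv, hv1⟩ := exists_sep _ hcon
    obtain ⟨c, hc⟩ := exists_psi_ne hψ
    apply hc
    have hfv : f ⬝ᵥ (c • v) = 0 := by
      rw [dotProduct_smul, hv f (Submodule.mem_span_singleton_self f), smul_zero]
    have h1 := DFunLike.congr_fun h0 (⟨c • v, hfv⟩ : Hy f)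
    rw [ch_apply, AddChar.zero_apply] at h1
    change ψ (h ⬝ᵥ (c • v)) = 1 at h1
    rwa [dotProduct_smul, hv1, smul_eq_mul, mul_one] at h1
  · intro h0
    obtain ⟨c, rfl⟩ := Submodule.mem_span_singleton.1 h0
    ext x
    rw [ch_apply, smul_dotProduct, mem_Hy.1 x.2, smul_zero, AddChar.map_zero_eq_one, AddChar.zero_apply]

theorem ch_eq_iff {ψ : AddChar F ℂ} (hψ : ψ ≠ 0) {f h h' : ι → F} :
    ch ψ f h = ch ψ f h' ↔ h - h' ∈ Submodule.span F {f} := by
  rw [← ch_zero_iff hψ]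
  constructor
  · intro h0
    ext x
    have := DFunLike.congr_fun h0 x
    rw [ch_apply, ch_apply] at this
    rw [ch_apply, sub_dotProduct, AddChar.map_sub_eq_div, this, div_self, AddChar.zero_apply]
    intro hz
    have h3 : ψ (h' ⬝ᵥ (x : ι → F)) * ψ (-(h' ⬝ᵥ (x : ι → F))) = 1 := by
      rw [← AddChar.map_add_eq_mul, add_neg_cancel, AddChar.map_zero_eq_one]
    rw [hz, zero_mul] at h3
    exact zero_ne_one h3
  · intro h0
    ext x
    have := DFunLike.congr_fun h0 x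
    rw [ch_apply, AddChar.zero_apply, sub_dotProduct] at this
    rw [ch_apply, ch_apply]
    have h3 : h ⬝ᵥ (x : ι → F) = (h ⬝ᵥ (x : ι → F) - h' ⬝ᵥ (x : ι → F)) + h' ⬝ᵥ (x : ι → F) := by ring
    rw [h3, AddChar.map_add_eq_mul, this, one_mul]

variable {V : Type*} [AddCommGroup V] [Module ℂ V] (ρ : Representation ℂ (Matrix.SpecialLinearGroup ι F) V)

/-- action of the transvections with hyperplane `f` -/
noncomputable def Uf (f : ι → F) : Hy f → (V →ₗ[ℂ] V) := fun x => ρ (tt f x)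

theorem Uf_zero (f : ι → F) (v : V) : Uf ρ f 0 v = v := by
  change ρ (tt f 0) v = v
  rw [tt_zero_right, map_one]; rfl

theorem Uf_add (f : ι → F) (a b : Hy f) (v : V) : Uf ρ f (a + b) v = Uf ρ f a (Uf ρ f b v) := by
  change ρ (tt f ((a : ι → F) + b)) v = ρ (tt f a) (ρ (tt f b) v)
  rw [tt_add_right a.2 b.2, map_mul]; rfl

theorem r_inv (g : Matrix.SpecialLinearGroup ι F) (v : V) : ρ g⁻¹ (ρ g v) = v := by
  rw [← Module.End.mul_apply, ← map_mul, inv_mul_cancel, map_one]; rfl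

theorem r_inv' (g : Matrix.SpecialLinearGroup ι F) (v : V) : ρ g (ρ g⁻¹ v) = v := by
  rw [← Module.End.mul_apply, ← map_mul, mul_inv_cancel, map_one]; rfl

theorem r_inj (g : Matrix.SpecialLinearGroup ι F) : Function.Injective (ρ g) := by
  intro a b hab
  have := congrArg (ρ g⁻¹) hab
  rwa [r_inv, r_inv] at this

/-- weight space of the functional `h` -/
noncomputable def Wf (ψ : AddChar F ℂ) (f h : ι → F) : Submodule ℂ V := wt (Uf ρ f) (ch ψ f h)

variable {ρ} {ψ : AddChar F ℂ}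

theorem mem_Wf {f h : ι → F} {v : V} : v ∈ Wf ρ ψ f h ↔ ∀ x, f ⬝ᵥ x = 0 → ρ (tt f x) v = ψ (h ⬝ᵥ x) • v :=
  ⟨fun hv x hx => hv ⟨x, hx⟩, fun hv x => hv x x.2⟩

theorem mem_W_zero {f : ι → F} {v : V} : v ∈ wt (Uf ρ f) 0 ↔ ∀ x, f ⬝ᵥ x = 0 → ρ (tt f x) v = v := by
  rw [mem_wt_zero]
  exact ⟨fun hv x hx => hv ⟨x, hx⟩, fun hv x => hv x x.2⟩

theorem Wf_conj (a : Matrix.SpecialLinearGroup ι F) {f h : ι → F} {v : V} :
    ρ a v ∈ Wf ρ ψ (fn a f) (fn a h) ↔ v ∈ Wf ρ ψ f h := by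
  rw [mem_Wf, mem_Wf]
  constructor
  · intro hv x hx
    have h1 := hv (mv a x) (by rw [dot_fn_mv, hx])
    rw [dot_fn_mv, ← Module.End.mul_apply, ← map_mul, ← tt_conj hx, map_mul, Module.End.mul_apply, ← map_smul] at h1
    exact r_inj ρ a h1
  · intro hv x hx
    have hx' : f ⬝ᵥ mv a⁻¹ x = 0 := by rw [← dot_fn_mv a, mv_mv_inv, hx]
    have h1 : tt (fn a f) x * a = a * tt f (mv a⁻¹ x) := by
      rw [tt_conj hx', mv_mv_inv]
    rw [← Module.End.mul_apply, ← map_mul, h1, map_mul, Module.End.mul_apply, hv _ hx', map_smul]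
    congr 2
    rw [← dot_fn_mv a, mv_mv_inv]

/-- conjugation as a linear equivalence -/
noncomputable def conjW (a : Matrix.SpecialLinearGroup ι F) {f h f' h' : ι → F} (hf : fn a f = f') (hh : fn a h = h') :
    Wf ρ ψ f h ≃ₗ[ℂ] Wf ρ ψ f' h' :=
  { toFun := fun v => ⟨ρ a v, by
      have := (Wf_conj (ψ := ψ) a (f := f) (h := h)).2 v.2
      rwa [hf, hh] at this⟩
    invFun := fun v => ⟨ρ a⁻¹ v, by
      have h1 := (Wf_conj (ψ := ψ) a⁻¹ (f := f') (h := h')).2 v.2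
      have h2 : fn a⁻¹ f' = f := by rw [← hf, fn_inv_fn]
      have h3 : fn a⁻¹ h' = h := by rw [← hh, fn_inv_fn]
      rwa [h2, h3] at h1⟩
    left_inv := fun v => Subtype.ext (r_inv ρ a v)
    right_inv := fun v => Subtype.ext (r_inv' ρ a v)
    map_add' := fun x y => Subtype.ext (by
      change ρ a ((x : V) + y) = ρ a x + ρ a y
      rw [map_add])
    map_smul' := fun c x => Subtype.ext (by
      change ρ a (c • (x : V)) = c • ρ a x
      rw [map_smul]) }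

theorem Wf_zero (f : ι → F) : Wf ρ ψ f 0 = wt (Uf ρ f) 0 := by
  rw [Wf]
  congr 1
  ext x
  rw [ch_apply, zero_dotProduct, AddChar.map_zero_eq_one, AddChar.zero_apply]

theorem finrank_zero_eq (hι : 3 ≤ Fintype.card ι) {f f' : ι → F} (hf : f ≠ 0) (hf' : f' ≠ 0) :
    finrank ℂ (wt (Uf ρ f) 0) = finrank ℂ (wt (Uf ρ f') 0) := by
  obtain ⟨a, ha⟩ := exists_move hι hf hf'
  rw [← Wf_zero (ρ := ρ) (ψ := 0), ← Wf_zero (ρ := ρ) (ψ := 0)]
  exact (conjW a ha (fn_zero a)).finrank_eq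

theorem finrank_W_eq (hι : 3 ≤ Fintype.card ι) {f h f' h' : ι → F} (hi : Ind f h) (hi' : Ind f' h') :
    finrank ℂ (Wf ρ ψ f h) = finrank ℂ (Wf ρ ψ f' h') := by
  obtain ⟨a, ha, ha'⟩ := exists_pair hι hi hi'
  exact (conjW a ha ha').finrank_eq

variable [FiniteDimensional ℂ V]

theorem finrank_eq (hι : 3 ≤ Fintype.card ι) (hψ : ψ ≠ 0) {f h : ι → F} (hi : Ind f h) :
    finrank ℂ V = finrank ℂ (wt (Uf ρ f) 0) + (Fintype.card (Hy f) - 1) * finrank ℂ (Wf ρ ψ f h) := by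
  classical
  rw [finrank_eq_sum_wt (Uf ρ f) (Uf_zero ρ f) (Uf_add ρ f), ← Finset.add_sum_erase _ _ (Finset.mem_univ 0)]
  congr 1
  rw [Finset.sum_congr rfl (g := fun _ => finrank ℂ (Wf ρ ψ f h)), Finset.sum_const,
    Finset.card_erase_of_mem (Finset.mem_univ _), Finset.card_univ, AddChar.card_eq, smul_eq_mul]
  intro φ hφ
  obtain ⟨k, rfl⟩ := exists_ch hψ f φ
  have hk : Ind f k := ⟨hi.1, fun h1 => (Finset.ne_of_mem_erase hφ) ((ch_zero_iff hψ).2 h1)⟩
  exact finrank_W_eq hι hk hi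

/-- trace of a transvection -/
theorem trace_tt (hι : 3 ≤ Fintype.card ι) (hψ : ψ ≠ 0) {f h x : ι → F} (hi : Ind f h) (hfx : f ⬝ᵥ x = 0) (hx : x ≠ 0) :
    LinearMap.trace ℂ V (ρ (tt f x)) = (finrank ℂ (wt (Uf ρ f) 0) : ℂ) - finrank ℂ (Wf ρ ψ f h) := by
  classical
  have h1 := trace_U (Uf_zero ρ f) (Uf_add ρ f) (⟨x, hfx⟩ : Hy f)
  change LinearMap.trace ℂ V (ρ (tt f x)) = _ at h1
  rw [h1, ← Finset.add_sum_erase _ _ (Finset.mem_univ 0), AddChar.zero_apply, one_mul,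
    Finset.sum_congr rfl (g := fun φ : AddChar (Hy f) ℂ => φ (⟨x, hfx⟩ : Hy f) * (finrank ℂ (Wf ρ ψ f h) : ℂ)),
    ← Finset.sum_mul]
  · have h2 : ∑ φ : AddChar (Hy f) ℂ, φ (⟨x, hfx⟩ : Hy f) = 0 := by
      rw [AddChar.sum_apply_eq_ite, if_neg]
      intro h
      exact hx (congrArg Subtype.val h)
    rw [← Finset.add_sum_erase _ _ (Finset.mem_univ 0), AddChar.zero_apply] at h2
    have h3 : ∑ φ ∈ Finset.univ.erase (0 : AddChar (Hy f) ℂ), φ (⟨x, hfx⟩ : Hy f) = -1 := by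
      linear_combination h2
    rw [h3]; ring
  · intro φ hφ
    obtain ⟨k, rfl⟩ := exists_ch hψ f φ
    have hk : Ind f k := ⟨hi.1, fun h1 => (Finset.ne_of_mem_erase hφ) ((ch_zero_iff hψ).2 h1)⟩
    congr 2
    exact finrank_W_eq hι hk hi

end Cfsg.Agent.LSSL
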