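import Cfsg.Agent.LSSL.Plane

/-!
Schur-type arguments for the sums of projections.
-/

set_option autoImplicit false
set_option linter.unusedSectionVars false
set_option linter.style.haveILetI false

namespace Cfsg.Agent.LSSL

open Module Matrix Cfsg.Agent.H39 Cfsg.Agent.LSU

variable {ι : Type*} [Fintype ι] [DecidableEq ι] {F : Type*} [Field F] [Fintype F]

theorem Nm_mul {f g : ι → F} {a b : Matrix.SpecialLinearGroup ι F} (ha : Nm f g a) (hb : Nm f g b) : Nm f g (a * b) := by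
  intro h
  rw [fn_mul, ha, hb]

theorem Nm_one (f g : ι → F) : Nm f g (1 : Matrix.SpecialLinearGroup ι F) := by
  intro h
  rw [fn_one]

theorem Nm_of_mem_NN {f g : ι → F} {a : Matrix.SpecialLinearGroup ι F} (ha : a ∈ NN f g) : Nm f g a := by
  induction ha using Subgroup.closure_induction with
  | mem x hx =>
    obtain ⟨h, hh, y, hy, rfl⟩ := hx
    exact Nm_tt hh hy
  | one => exact Nm_one f g
  | mul x y _ _ hx hy => exact Nm_mul hx hy
  | inv x _ hx => exact hx.inv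

theorem exists_ind_mem {f g h : ι → F} (hi : Ind f g) (hh0 : h ≠ 0) : ∃ h' ∈ LL f g, Ind h h' := by
  by_cases h1 : f ∈ Submodule.span F {h}
  · by_cases h2 : g ∈ Submodule.span F {h}
    · exfalso
      have h3 : LL f g ≤ Submodule.span F {h} := by
        rw [LL, Submodule.span_le]
        intro z hz
        rcases hz with rfl | hz
        · exact h1
        · rw [Set.mem_singleton_iff] at hz
          rw [hz]; exact h2
      have h4 := Submodule.finrank_mono h3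
      rw [finrank_LL hi, finrank_span_singleton hh0] at h4
      omega
    · exact ⟨g, right_mem_LL f g, hh0, h2⟩
  · exact ⟨f, left_mem_LL f g, hh0, h1⟩

theorem exists_Nm (hι : 3 ≤ Fintype.card ι) {f g h : ι → F} (hi : Ind f g) (hh : h ∈ LL f g) (hh0 : h ≠ 0) :
    ∃ c, Nm f g c ∧ fn c f = h := by
  obtain ⟨h', hh', hi'⟩ := exists_ind_mem hi hh0
  obtain ⟨c, hc1, hc2⟩ := exists_pair hι hi hi'
  exact ⟨c, Nm_of_pair hi (by rw [hc1]; exact hh) (by rw [hc2]; exact hh'), hc1⟩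

open Classical in
/-- nonzero functionals of the plane -/
noncomputable def Om (f g : ι → F) : Finset (ι → F) := Finset.univ.filter fun h => h ≠ 0 ∧ h ∈ LL f g

theorem mem_Om {f g h : ι → F} : h ∈ Om f g ↔ h ≠ 0 ∧ h ∈ LL f g := by
  classical
  simp [Om]

theorem card_submodule_erase (L : Submodule F (ι → F)) [DecidablePred fun h : ι → F => h ≠ 0 ∧ h ∈ L] :
    (Finset.univ.filter fun h : ι → F => h ≠ 0 ∧ h ∈ L).card = Fintype.card F ^ finrank F L - 1 := by
  classical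
  letI : Fintype L := Fintype.ofFinite L
  have h1 : (Finset.univ.filter fun h : ι → F => h ≠ 0 ∧ h ∈ L) = (Finset.univ.filter fun h : ι → F => h ∈ L).erase 0 := by
    ext h
    simp
  have h2 : (Finset.univ.filter fun h : ι → F => h ∈ L).card = Fintype.card L :=
    (Fintype.card_of_subtype _ (fun x => by simp)).symm
  rw [h1, Finset.card_erase_of_mem (by simp), h2, Module.card_eq_pow_finrank (K := F)]

theorem card_Om {f g : ι → F} (h : Ind f g) : (Om f g).card = Fintype.card F ^ 2 - 1 := by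
  classical
  rw [Om, card_submodule_erase, finrank_LL h]

variable {V : Type*} [AddCommGroup V] [Module ℂ V] (ρ : Representation ℂ (Matrix.SpecialLinearGroup ι F) V)
variable {ψ : AddChar F ℂ}

/-- sum of the projections of the plane -/
noncomputable def KL (f g : ι → F) : V →ₗ[ℂ] V := ∑ h ∈ Om f g, pj ρ h

theorem KL_comm {f g : ι → F} {c : Matrix.SpecialLinearGroup ι F} (hc : Nm f g c) : ρ c * KL ρ f g = KL ρ f g * ρ c := by
  rw [KL, Finset.mul_sum, Finset.sum_mul]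
  refine Finset.sum_nbij' (fn c) (fn c⁻¹) ?_ ?_ ?_ ?_ ?_
  · intro h hh
    rw [mem_Om] at hh ⊢
    exact ⟨fn_ne_zero c hh.1, (hc h).2 hh.2⟩
  · intro h hh
    rw [mem_Om] at hh ⊢
    exact ⟨fn_ne_zero _ hh.1, (hc.inv h).2 hh.2⟩
  · intro h _; exact fn_inv_fn c h
  · intro h _; exact fn_fn_inv c h
  · intro h _; exact pj_conj ρ c h

theorem KL_comm_pE (f g : ι → F) : pE ρ f g * KL ρ f g = KL ρ f g * pE ρ f g := by
  rw [KL, Finset.mul_sum, Finset.sum_mul]
  exact Finset.sum_congr rfl fun h hh => pj_comm_pE ρ (mem_Om.1 hh).2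

theorem KL_mul_pT {f g : ι → F} (hi : Ind f g) : KL ρ f g * pT ρ f g = ((Fintype.card F : ℂ) ^ 2 - 1) • pT ρ f g := by
  rw [KL, Finset.sum_mul, Finset.sum_congr rfl (g := fun _ => pT ρ f g) (fun h hh => pj_mul_pT ρ (mem_Om.1 hh).2),
    Finset.sum_const, card_Om hi, ← Nat.cast_smul_eq_nsmul ℂ, Nat.cast_sub (Nat.one_le_pow _ _ Fintype.card_pos)]
  push_cast
  rfl

theorem pT_mul_KL {f g : ι → F} (hi : Ind f g) : pT ρ f g * KL ρ f g = ((Fintype.card F : ℂ) ^ 2 - 1) • pT ρ f g := by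
  rw [KL, Finset.mul_sum, Finset.sum_congr rfl (g := fun _ => pT ρ f g) (fun h hh => pT_mul_pj ρ (mem_Om.1 hh).2),
    Finset.sum_const, card_Om hi, ← Nat.cast_smul_eq_nsmul ℂ, Nat.cast_sub (Nat.one_le_pow _ _ Fintype.card_pos)]
  push_cast
  rfl

theorem pE_comm_PP {f g : ι → F} (φ : AddChar (Hy f) ℂ) :
    pE ρ f g * PP (Uf ρ f) φ = PP (Uf ρ f) φ * pE ρ f g := by
  rw [PP, wtProj, smul_mul_assoc, mul_smul_comm, Finset.mul_sum, Finset.sum_mul]
  congr 1
  refine Finset.sum_congr rfl fun x _ => ?_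
  rw [smul_mul_assoc, mul_smul_comm]
  congr 1
  exact (pE_comm ρ (Nm_tt (left_mem_LL f g) x.2)).symm

variable [FiniteDimensional ℂ V] {ρ}

/-- (G5) -/
theorem exists_kappa (H : Hyp ρ ψ) {f g : ι → F} (hi : Ind f g) :
    ∃ κ : ℂ, KL ρ f g * (pE ρ f g - pT ρ f g) = κ • (pE ρ f g - pT ρ f g) := by
  classical
  set K := KL ρ f g with hK
  set E := pE ρ f g with hE
  set T := pT ρ f g with hT
  have eET : ∀ v, E (T v) = T v := fun v => congrArg (fun A : V →ₗ[ℂ] V => A v) (pE_mul_pT ρ f g)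
  have eTE : ∀ v, T (E v) = T v := fun v => congrArg (fun A : V →ₗ[ℂ] V => A v) (pT_mul_pE ρ f g)
  have eEE : ∀ v, E (E v) = E v := fun v => congrArg (fun A : V →ₗ[ℂ] V => A v) (pE_mul_pE ρ f g)
  have eTT : ∀ v, T (T v) = T v := fun v => congrArg (fun A : V →ₗ[ℂ] V => A v) (pT_mul_pT ρ f g)
  have eEK : ∀ v, E (K v) = K (E v) := fun v => congrArg (fun A : V →ₗ[ℂ] V => A v) (KL_comm_pE ρ f g)
  have eTK : ∀ v, T (K v) = ((Fintype.card F : ℂ) ^ 2 - 1) • T v := fun v =>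
    congrArg (fun A : V →ₗ[ℂ] V => A v) (pT_mul_KL ρ hi)
  have ecE : ∀ c, Nm f g c → ∀ v, E (ρ c v) = ρ c (E v) := fun c hc v =>
    (congrArg (fun A : V →ₗ[ℂ] V => A v) (pE_comm ρ hc)).symm
  have ecT : ∀ c, Nm f g c → ∀ v, T (ρ c v) = ρ c (T v) := fun c hc v =>
    (congrArg (fun A : V →ₗ[ℂ] V => A v) (pT_comm ρ hc)).symm
  have ecK : ∀ c, Nm f g c → ∀ v, K (ρ c v) = ρ c (K v) := fun c hc v =>
    (congrArg (fun A : V →ₗ[ℂ] V => A v) (KL_comm ρ hc)).symm
  have ecP : ∀ c h v, ρ c (pj ρ h v) = pj ρ (fn c h) (ρ c v) := fun c h v =>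
    congrArg (fun A : V →ₗ[ℂ] V => A v) (pj_conj ρ c h)
  let S : Submodule ℂ V :=
    { carrier := {v | E v = v ∧ T v = 0}
      add_mem' := fun {a b} ha hb => ⟨by rw [map_add, ha.1, hb.1], by rw [map_add, ha.2, hb.2, add_zero]⟩
      zero_mem' := ⟨map_zero _, map_zero _⟩
      smul_mem' := fun c a ha => ⟨by rw [map_smul, ha.1], by rw [map_smul, ha.2, smul_zero]⟩ }
  have hPS : ∀ v, (E - T) v ∈ S := fun v => by
    refine ⟨?_, ?_⟩
    · rw [LinearMap.sub_apply, map_sub, eEE, eET]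
    · rw [LinearMap.sub_apply, map_sub, eTE, eTT, sub_self]
  have hKS : ∀ v ∈ S, K v ∈ S := fun v hv => ⟨by rw [eEK, hv.1], by rw [eTK, hv.2, smul_zero]⟩
  by_cases hS : S = ⊥
  · refine ⟨0, ?_⟩
    ext v
    have := hPS v
    rw [hS, Submodule.mem_bot] at this
    rw [zero_smul, Module.End.mul_apply, this, map_zero]; rfl
  haveI : Nontrivial S := Submodule.nontrivial_iff_ne_bot.2 hS
  obtain ⟨κ, hκ⟩ := Module.End.exists_eigenvalue (K.restrict hKS)
  obtain ⟨v₀, hv₀⟩ := hκ.exists_hasEigenvector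
  refine ⟨κ, ?_⟩
  let S' : Submodule ℂ V :=
    { carrier := {v | v ∈ S ∧ K v = κ • v}
      add_mem' := fun {a b} ha hb => ⟨S.add_mem ha.1 hb.1, by rw [map_add, ha.2, hb.2, smul_add]⟩
      zero_mem' := ⟨S.zero_mem, by rw [map_zero, smul_zero]⟩
      smul_mem' := fun c a ha => ⟨S.smul_mem c ha.1, by rw [map_smul, ha.2, smul_comm]⟩ }
  have hv₀S : (v₀ : V) ∈ S' := ⟨v₀.2, congrArg Subtype.val hv₀.apply_eq_smul⟩
  have hv₀0 : (v₀ : V) ≠ 0 := fun h => hv₀.2 (Subtype.ext h)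
  -- claim A
  have cA : ∀ c, Nm f g c → ∀ v ∈ S', ρ c v ∈ S' := by
    intro c hc v hv
    refine ⟨⟨by rw [ecE c hc, hv.1.1], by rw [ecT c hc, hv.1.2, map_zero]⟩, ?_⟩
    rw [ecK c hc, hv.2, map_smul]
  -- claim B
  have cB : ∃ v ∈ S', pj ρ f v ≠ v := by
    by_contra hcon
    push Not at hcon
    apply hv₀0
    have h1 : (v₀ : V) ∈ fixS ρ (NN f g) := by
      apply mem_fixS_closure
      rintro _ ⟨h, hh, x, hx, rfl⟩
      by_cases h0 : h = 0
      · rw [h0, tt_zero_left, map_one]; rfl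
      obtain ⟨c, hc, hcf⟩ := exists_Nm H.hι hi hh h0
      have h2 := hcon _ (cA c⁻¹ hc.inv _ hv₀S)
      have h3 := ecP c f (ρ c⁻¹ (v₀ : V))
      rw [h2, hcf, r_inv'] at h3
      rw [h3, pj_fix ρ h _ hx]
    have h2 : T (v₀ : V) = v₀ := avg_of_fix ρ h1
    rw [← h2, hv₀S.1.2]
  -- claim C
  have hPPS : ∀ (φ : AddChar (Hy f) ℂ) (v : V), v ∈ S' → PP (Uf ρ f) φ v ∈ S' := by
    intro φ v hv
    rw [PP, wtProj, LinearMap.smul_apply, LinearMap.sum_apply]
    refine S'.smul_mem _ (S'.sum_mem fun x _ => ?_)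
    rw [LinearMap.smul_apply]
    exact S'.smul_mem _ (cA _ (Nm_tt (left_mem_LL f g) x.2) v hv)
  have cC : ∃ k, Ind f k ∧ k ∈ LL f g ∧ Wf ρ ψ f k ≤ S' := by
    obtain ⟨v, hv, hpv⟩ := cB
    have h1 : ∃ φ : AddChar (Hy f) ℂ, φ ≠ 0 ∧ PP (Uf ρ f) φ v ≠ 0 := by
      by_contra hcon
      push Not at hcon
      apply hpv
      have h2 := sum_PP (Uf_zero ρ f) v
      rw [Finset.sum_eq_single (0 : AddChar (Hy f) ℂ) (fun φ _ hφ => hcon φ hφ)
        (fun h => absurd (Finset.mem_univ _) h)] at h2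
      exact h2
    obtain ⟨φ, hφ0, hφ⟩ := h1
    obtain ⟨k, rfl⟩ := exists_ch H.hψ f φ
    have hk : Ind f k := ⟨hi.1, fun h1 => hφ0 ((ch_zero_iff H.hψ).2 h1)⟩
    have hu := hPPS (ch ψ f k) v hv
    have huW : PP (Uf ρ f) (ch ψ f k) v ∈ Wf ρ ψ f k := PP_mem (Uf_add ρ f) _ v
    refine ⟨k, hk, ?_, ?_⟩
    · by_contra hkL
      apply hφ
      rw [← hu.1.1]
      exact pE_Wf_zero H.hψ hkL _ huW
    · intro w hw
      have h2 : (⟨_, huW⟩ : Wf ρ ψ f k) ≠ 0 := fun h0 => hφ (congrArg Subtype.val h0)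
      obtain ⟨c, hc⟩ := (finrank_eq_one_iff_of_nonzero' _ h2).1 (H.one f k hk) ⟨w, hw⟩
      have h3 : c • PP (Uf ρ f) (ch ψ f k) v = w := congrArg Subtype.val hc
      rw [← h3]
      exact S'.smul_mem _ hu
  -- claim D
  have cD : ∀ k', Ind f k' → k' ∈ LL f g → Wf ρ ψ f k' ≤ S' := by
    intro k' hk' hk'L w hw
    obtain ⟨k, hk, hkL, hkS⟩ := cC
    obtain ⟨c, hc1, hc2⟩ := exists_fix H.hι hk hk'
    have hL : LL f k = LL f g := LL_eq hi hk (left_mem_LL f g) hkL
    have hNm : Nm f g c := by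
      have h1 : Nm f k c := Nm_of_pair hk (by rw [hc1]; exact left_mem_LL f k) (by rw [hc2, hL]; exact hk'L)
      intro h
      rw [← hL]; exact h1 h
    have h1 := (Wf_conj (ρ := ρ) (ψ := ψ) c⁻¹ (f := f) (h := k')).2 hw
    have h2 : fn c⁻¹ f = f := by conv_lhs => rw [← hc1, fn_inv_fn]
    have h3 : fn c⁻¹ k' = k := by rw [← hc2, fn_inv_fn]
    rw [h2, h3] at h1
    have h4 := cA c hNm _ (hkS h1)
    rwa [r_inv'] at h4
  -- claim E
  have cE : ∀ v, E v = v → v - pj ρ f v ∈ S' := by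
    intro v hv
    have h1 := sum_PP (Uf_zero ρ f) v
    rw [← Finset.add_sum_erase _ _ (Finset.mem_univ (0 : AddChar (Hy f) ℂ))] at h1
    have h2 : v - pj ρ f v = ∑ φ ∈ Finset.univ.erase (0 : AddChar (Hy f) ℂ), PP (Uf ρ f) φ v := by
      rw [sub_eq_iff_eq_add]
      conv_lhs => rw [← h1]
      rw [add_comm]; rfl
    rw [h2]
    refine S'.sum_mem fun φ hφ => ?_
    obtain ⟨k, rfl⟩ := exists_ch H.hψ f φ
    have hk : Ind f k := ⟨hi.1, fun h1 => (Finset.ne_of_mem_erase hφ) ((ch_zero_iff H.hψ).2 h1)⟩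
    have huW : PP (Uf ρ f) (ch ψ f k) v ∈ Wf ρ ψ f k := PP_mem (Uf_add ρ f) _ v
    by_cases hkL : k ∈ LL f g
    · exact cD k hk hkL huW
    · have h3 : E (PP (Uf ρ f) (ch ψ f k) v) = PP (Uf ρ f) (ch ψ f k) (E v) :=
        congrArg (fun A : V →ₗ[ℂ] V => A v) (pE_comm_PP ρ (g := g) (ch ψ f k))
      rw [hv, hE, pE_Wf_zero H.hψ hkL _ huW] at h3
      rw [← h3]
      exact S'.zero_mem
  -- claim F
  have cF : ∀ h ∈ LL f g, h ≠ 0 → ∀ v, E v = v → v - pj ρ h v ∈ S' := by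
    intro h hh h0 v hv
    obtain ⟨c, hc, hcf⟩ := exists_Nm H.hι hi hh h0
    have h1 := cA c hc _ (cE (ρ c⁻¹ v) (by rw [ecE _ hc.inv, hv]))
    rwa [map_sub, r_inv', ecP, hcf, r_inv'] at h1
  -- claim G
  have cG : ∀ a ∈ NN f g, ∀ v, E v = v → ρ a v - v ∈ S' := by
    intro a ha
    have hstep : ∀ a ∈ NN f g, Nm f g a := fun a ha => Nm_of_mem_NN ha
    induction ha using Subgroup.closure_induction with
    | mem x hx =>
      obtain ⟨h, hh, y, hy, rfl⟩ := hx
      intro v hv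
      by_cases h0 : h = 0
      · rw [h0, tt_zero_left, map_one]
        change v - v ∈ S'
        rw [sub_self]; exact S'.zero_mem
      · have h1 := cF h hh h0 v hv
        have h2 := S'.sub_mem (cA _ (Nm_tt hh hy) _ h1) h1
        rw [map_sub, pj_fix ρ h v hy] at h2
        have e : ρ (tt h y) v - pj ρ h v - (v - pj ρ h v) = ρ (tt h y) v - v := by abel
        rwa [e] at h2
    | one =>
      intro v _
      rw [map_one]
      change v - v ∈ S'
      rw [sub_self]; exact S'.zero_mem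
    | mul x y hx' hy' hx hy =>
      intro v hv
      have h1 := S'.add_mem (cA x (hstep x hx') _ (hy v hv)) (hx v hv)
      have e : ρ x (ρ y v - v) + (ρ x v - v) = ρ (x * y) v - v := by
        rw [map_sub, map_mul, Module.End.mul_apply]; abel
      rwa [e] at h1
    | inv x hx' hx =>
      intro v hv
      have h1 := S'.neg_mem (cA x⁻¹ (hstep x hx').inv _ (hx v hv))
      have e : -(ρ x⁻¹ (ρ x v - v)) = ρ x⁻¹ v - v := by
        rw [map_sub, r_inv]; abel
      rwa [e] at h1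
  -- claim H
  have cH : ∀ v ∈ S, v ∈ S' := by
    intro v hv
    letI : Fintype (NN f g) := Fintype.ofFinite _
    have hcard : (Fintype.card (NN f g) : ℂ) ≠ 0 := by simp [Fintype.card_ne_zero]
    have h1 : T v - v = (Fintype.card (NN f g) : ℂ)⁻¹ • ∑ a : NN f g, (ρ (a : Matrix.SpecialLinearGroup ι F) v - v) := by
      rw [hT, pT, avg, LinearMap.smul_apply, LinearMap.sum_apply, Finset.sum_sub_distrib, smul_sub, Finset.sum_const,
        Finset.card_univ, ← Nat.cast_smul_eq_nsmul ℂ, smul_smul, inv_mul_cancel₀ hcard, one_smul]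
    have h2 : T v - v ∈ S' := by
      rw [h1]
      exact S'.smul_mem _ (S'.sum_mem fun a _ => cG a a.2 v hv.1)
    rw [hv.2, zero_sub] at h2
    have := S'.neg_mem h2
    rwa [neg_neg] at this
  ext v
  exact (cH _ (hPS v)).2

open Classical in
/-- the sum of all projections -/
noncomputable def KV (ρ : Representation ℂ (Matrix.SpecialLinearGroup ι F) V) : V →ₗ[ℂ] V :=
  ∑ h ∈ Finset.univ.filter (fun h : ι → F => h ≠ 0), pj ρ h

theorem KV_comm (c : Matrix.SpecialLinearGroup ι F) : ρ c * KV ρ = KV ρ * ρ c := by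
  classical
  rw [KV, Finset.mul_sum, Finset.sum_mul]
  refine Finset.sum_nbij' (fn c) (fn c⁻¹) ?_ ?_ ?_ ?_ ?_
  · intro h hh
    simp only [Finset.mem_filter, Finset.mem_univ, true_and] at hh ⊢
    exact fn_ne_zero c hh
  · intro h hh
    simp only [Finset.mem_filter, Finset.mem_univ, true_and] at hh ⊢
    exact fn_ne_zero _ hh
  · intro h _; exact fn_inv_fn c h
  · intro h _; exact fn_fn_inv c h
  · intro h _; exact pj_conj ρ c h

/-- (G6) Schur's lemma -/
theorem exists_lambda (hirr : ρ.IsIrreducible) [Nontrivial V] : ∃ lam : ℂ, KV ρ = lam • (1 : V →ₗ[ℂ] V) := by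
  obtain ⟨lam, hlam⟩ := Module.End.exists_eigenvalue (KV ρ)
  obtain ⟨v₀, hv₀⟩ := hlam.exists_hasEigenvector
  let σ : Subrepresentation ρ :=
    { toSubmodule := Module.End.eigenspace (KV ρ) lam
      apply_mem_toSubmodule := by
        intro g v hv
        rw [Module.End.mem_eigenspace_iff] at hv ⊢
        have h1 : KV ρ (ρ g v) = ρ g (KV ρ v) := (congrArg (fun A : V →ₗ[ℂ] V => A v) (KV_comm (ρ := ρ) g)).symm
        rw [h1, hv, map_smul] }
  refine ⟨lam, ?_⟩
  rcases hirr.eq_bot_or_eq_top σ with h1 | h1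
  · exfalso
    have h2 : v₀ ∈ σ.toSubmodule := hv₀.1
    rw [h1] at h2
    exact hv₀.2 h2
  · ext v
    have h2 : v ∈ σ.toSubmodule := by
      rw [h1]; exact Submodule.mem_top
    exact Module.End.mem_eigenspace_iff.1 h2

end Cfsg.Agent.LSSL
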