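import Cfsg.Agent.LSSL.Rep

/-!
One-dimensional weight spaces are fixed by the transvections in their stabilizer.
-/

set_option autoImplicit false
set_option linter.unusedSectionVars false

namespace Cfsg.Agent.LSSL

open Module Matrix Cfsg.Agent.H39 Cfsg.Agent.LSU

variable {ι : Type*} [Fintype ι] [DecidableEq ι] {F : Type*} [Field F] [Fintype F]
variable {V : Type*} [AddCommGroup V] [Module ℂ V] {ρ : Representation ℂ (Matrix.SpecialLinearGroup ι F) V}
variable {ψ : AddChar F ℂ}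

/-- commutators act trivially on one-dimensional spaces -/
theorem core [FiniteDimensional ℂ V] {W : Submodule ℂ V} (hW : finrank ℂ W ≤ 1) {a b t : Matrix.SpecialLinearGroup ι F}
    (ha : ∀ v ∈ W, ρ a v ∈ W) (hb : ∀ v ∈ W, ρ b v ∈ W) (h : a * b = t * (b * a)) : ∀ v ∈ W, ρ t v = v := by
  intro v hv
  by_cases hv0 : v = 0
  · rw [hv0, map_zero]
  -- every element of `W` is a multiple of `v`
  have hmul : ∀ w ∈ W, ∃ c : ℂ, w = c • v := by
    intro w hw
    have h1 : (⟨v, hv⟩ : W) ≠ 0 := fun h0 => hv0 (congrArg Subtype.val h0)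
    have h2 : finrank ℂ W = 1 := by
      apply le_antisymm hW
      rw [Nat.one_le_iff_ne_zero]
      intro h0
      haveI := Submodule.finrank_eq_zero.1 h0
      rw [this, Submodule.mem_bot] at hv
      exact hv0 hv
    obtain ⟨c, hc⟩ := (finrank_eq_one_iff_of_nonzero' (⟨v, hv⟩ : W) h1).1 h2 ⟨w, hw⟩
    exact ⟨c, (congrArg Subtype.val hc).symm⟩
  obtain ⟨α, hα⟩ := hmul _ (ha v hv)
  obtain ⟨β, hβ⟩ := hmul _ (hb v hv)
  have h1 : ρ (a * b) v = (α * β) • v := by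
    rw [map_mul, Module.End.mul_apply, hβ, map_smul, hα, smul_smul, mul_comm]
  have h2 : ρ (b * a) v = (α * β) • v := by
    rw [map_mul, Module.End.mul_apply, hα, map_smul, hβ, smul_smul]
  have h3 : ρ (a * b) v = ρ t (ρ (b * a) v) := by rw [h, map_mul]; rfl
  rw [h1, h2, map_smul] at h3
  have h4 : α * β ≠ 0 := by
    intro h0
    rw [h0, zero_smul] at h2
    apply hv0
    rw [← r_inv ρ (b * a) v, h2, map_zero]
  exact (smul_right_injective V h4 h3).symm

theorem pres_of_fix {a : Matrix.SpecialLinearGroup ι F} {f h : ι → F} (hf : fn a f = f) (hh : fn a h = h) :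
    ∀ v ∈ Wf ρ ψ f h, ρ a v ∈ Wf ρ ψ f h := by
  intro v hv
  have := (Wf_conj (ψ := ψ) a (f := f) (h := h)).2 hv
  rwa [hf, hh] at this

theorem Wf_smul_smul {c : F} (hc : c ≠ 0) (f h : ι → F) : Wf ρ ψ (c • f) (c • h) = Wf ρ ψ f h := by
  ext v
  rw [mem_Wf, mem_Wf]
  constructor
  · intro hv x hx
    have h1 : f ⬝ᵥ (c⁻¹ • x) = 0 := by rw [dotProduct_smul, hx, smul_zero]
    have h2 := hv (c⁻¹ • x) (by rw [smul_dotProduct, h1, smul_zero])
    rw [tt_smul h1, smul_smul, mul_inv_cancel₀ hc, one_smul, smul_dotProduct, dotProduct_smul, smul_smul,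
      mul_inv_cancel₀ hc, one_smul] at h2
    exact h2
  · intro hv x hx
    have h1 : f ⬝ᵥ x = 0 := by
      rw [smul_dotProduct] at hx
      exact (smul_eq_zero.1 hx).resolve_left hc
    rw [tt_smul h1, hv _ (by rw [dotProduct_smul, h1, smul_zero]), smul_dotProduct, dotProduct_smul]

theorem exists_z (S : Finset (ι → F)) (y : ι → F) (h : S.card + 2 ≤ Fintype.card ι) :
    ∃ z, z ∉ Submodule.span F {y} ∧ ∀ s ∈ S, s ⬝ᵥ z = 0 := by
  classical
  by_contra hcon
  push Not at hcon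
  let φ : (ι → F) →ₗ[F] (S → F) :=
    { toFun := fun z s => (s : ι → F) ⬝ᵥ z
      map_add' := fun a b => by funext s; exact dotProduct_add _ _ _
      map_smul' := fun c a => by funext s; exact dotProduct_smul _ _ _ }
  have h1 := LinearMap.finrank_range_add_finrank_ker φ
  have h2 : finrank F (LinearMap.range φ) ≤ S.card := by
    refine (Submodule.finrank_le _).trans ?_
    rw [finrank_fintype_fun_eq_card, Fintype.card_coe]
  have h3 : LinearMap.ker φ ≤ Submodule.span F {y} := by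
    intro z hz
    by_contra hz'
    obtain ⟨s, hs, hs0⟩ := hcon z hz'
    exact hs0 (congrFun (LinearMap.mem_ker.1 hz) ⟨s, hs⟩)
  have h4 : finrank F (LinearMap.ker φ) ≤ 1 := (Submodule.finrank_mono h3).trans ((finrank_span_le_card _).trans (by simp))
  rw [finrank_fintype_fun_eq_card] at h1
  omega

variable [FiniteDimensional ℂ V]

/-- first construction -/
theorem fix_of_z {f h g y z : ι → F} (hW : finrank ℂ (Wf ρ ψ f h) ≤ 1) (hfy : f ⬝ᵥ y = 0) (hhy : h ⬝ᵥ y = 0)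
    (hgy : g ⬝ᵥ y = 0) (hz : z ∉ Submodule.span F {y}) (hfz : f ⬝ᵥ z = 0) (hhz : h ⬝ᵥ z = 0) (hgz : g ⬝ᵥ z = 0) :
    ∀ v ∈ Wf ρ ψ f h, ρ (tt g y) v = v := by
  obtain ⟨g₁, hg₁, hg₁z⟩ := exists_sep _ hz
  have hg₁y : g₁ ⬝ᵥ y = 0 := by rw [dotProduct_comm]; exact hg₁ y (Submodule.mem_span_singleton_self y)
  rw [dotProduct_comm] at hg₁z
  refine core hW (a := tt g₁ y) (b := tt g z) (pres_of_fix ?_ ?_) (pres_of_fix ?_ ?_) ?_
  · rw [fn_tt hg₁y, hfy, zero_smul, sub_zero]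
  · rw [fn_tt hg₁y, hhy, zero_smul, sub_zero]
  · rw [fn_tt hgz, hfz, zero_smul, sub_zero]
  · rw [fn_tt hgz, hhz, zero_smul, sub_zero]
  · apply mv_ext
    intro w
    simp only [mv_mul, mv_tt hg₁y, mv_tt hgz, mv_tt hgy, dotProduct_add, dotProduct_smul, hg₁z, hgy, hgz, smul_zero,
      smul_eq_mul, mul_one, mul_zero, add_zero]
    module

/-- the torus of a hyperbolic pair -/
theorem exists_torus {g y v k : ι → F} (hgy : g ⬝ᵥ y = 0) (hgv : g ⬝ᵥ v = 1) (hky : k ⬝ᵥ y = 1) (hkv : k ⬝ᵥ v = 0)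
    {α : F} (hα : α ≠ 0) : ∃ t : Matrix.SpecialLinearGroup ι F, fn t g = α • g ∧ mv t y = α • y ∧
      ∀ f : ι → F, f ⬝ᵥ y = 0 → f ⬝ᵥ v = 0 → fn t f = f := by
  have h1 : g ⬝ᵥ (α • y) = 0 := by rw [dotProduct_smul, hgy, smul_zero]
  have h2 : k ⬝ᵥ (-α⁻¹ • v) = 0 := by rw [dotProduct_smul, hkv, smul_zero]
  have h3 : g ⬝ᵥ (-y) = 0 := by rw [dotProduct_neg, hgy, neg_zero]
  refine ⟨tt g (α • y) * tt k (-α⁻¹ • v) * tt g (α • y) * tt g (-y) * tt k v * tt g (-y), ?_, ?_, ?_⟩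
  · simp only [fn_mul, fn_tt h1, fn_tt h2, fn_tt h3, fn_tt hkv, sub_dotProduct, smul_dotProduct, dotProduct_smul,
      dotProduct_neg, hgy, hgv, hky, hkv, smul_eq_mul, mul_zero, mul_one, neg_zero, sub_zero, zero_smul, zero_sub]
    have e : α⁻¹ * α = 1 := inv_mul_cancel₀ hα
    match_scalars <;> field_simp <;> ring
  · simp only [mv_mul, mv_tt h1, mv_tt h2, mv_tt h3, mv_tt hkv, dotProduct_add, smul_dotProduct, dotProduct_smul,
      dotProduct_neg, hgy, hgv, hky, hkv, smul_eq_mul, mul_zero, mul_one, neg_zero, add_zero, zero_smul, zero_add]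
    match_scalars <;> field_simp <;> ring
  · intro f hfy hfv
    simp only [fn_mul, fn_tt h1, fn_tt h2, fn_tt h3, fn_tt hkv, dotProduct_smul, dotProduct_neg, hfy, hfv, smul_zero,
      neg_zero, zero_smul, sub_zero]

theorem exists_pow_ne {k : ℕ} (hk : k ≠ 0) (h : k + 1 < Fintype.card F) : ∃ α : F, α ≠ 0 ∧ α ^ k ≠ 1 := by
  classical
  obtain ⟨u, hu⟩ := exists_pow_ne_one_of_isCyclic (G := Fˣ) hk (by
    rw [Nat.card_eq_fintype_card, Fintype.card_units]; omega)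
  refine ⟨u, u.ne_zero, fun h0 => hu ?_⟩
  apply Units.ext
  rw [Units.val_pow_eq_pow_val, h0, Units.val_one]

/-- second construction -/
theorem fix_of_notMem {f h g y : ι → F} (hW : finrank ℂ (Wf ρ ψ f h) ≤ 1) (hfy : f ⬝ᵥ y = 0) (hhy : h ⬝ᵥ y = 0)
    (hgy : g ⬝ᵥ y = 0) (hg : g ∉ Submodule.span F {f, h}) (hq : 3 < Fintype.card F) :
    ∀ v ∈ Wf ρ ψ f h, ρ (tt g y) v = v := by
  by_cases hy : y = 0
  · rw [hy, tt_zero_right, map_one]; exact fun v _ => rfl
  obtain ⟨v, hv, hgv⟩ := exists_sep _ hg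
  have hfv : f ⬝ᵥ v = 0 := hv f (Submodule.subset_span (by simp))
  have hhv : h ⬝ᵥ v = 0 := hv h (Submodule.subset_span (by simp))
  have hyv : y ∉ Submodule.span F {v} := by
    intro h1
    obtain ⟨c, hc⟩ := Submodule.mem_span_singleton.1 h1
    rw [← hc, dotProduct_smul, hgv, smul_eq_mul, mul_one] at hgy
    rw [hgy, zero_smul] at hc
    exact hy hc.symm
  obtain ⟨k, hk, hky⟩ := exists_sep _ hyv
  have hkv : k ⬝ᵥ v = 0 := by rw [dotProduct_comm]; exact hk v (Submodule.mem_span_singleton_self v)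
  rw [dotProduct_comm] at hky
  obtain ⟨α, hα0, hα⟩ := exists_pow_ne (F := F) (k := 2) (by norm_num) (by omega)
  obtain ⟨t, htg, hty, ht⟩ := exists_torus hgy hgv hky hkv hα0
  set y' := (α ^ 2 - 1)⁻¹ • y with hy'
  have hα' : α ^ 2 - 1 ≠ 0 := sub_ne_zero.2 hα
  have hgy' : g ⬝ᵥ y' = 0 := by rw [hy', dotProduct_smul, hgy, smul_zero]
  refine core hW (a := t) (b := tt g y') (pres_of_fix (ht f hfy hfv) (ht h hhy hhv)) (pres_of_fix ?_ ?_) ?_
  · rw [fn_tt hgy', hy', dotProduct_smul, hfy, smul_zero, zero_smul, sub_zero]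
  · rw [fn_tt hgy', hy', dotProduct_smul, hhy, smul_zero, zero_smul, sub_zero]
  · have e : mv t y' = α • y' := by rw [hy', mv_smul, hty, smul_comm]
    have h3 : g ⬝ᵥ (α • y') = 0 := by rw [dotProduct_smul, hgy', smul_zero]
    rw [tt_conj hgy', htg, e, tt_smul h3, ← mul_assoc, ← tt_add_right hgy hgy']
    congr 2
    rw [hy', smul_smul, smul_smul]
    match_scalars
    field_simp
    ring

/-- third construction -/
theorem fix_three {f h g y : ι → F} (hW : finrank ℂ (Wf ρ ψ f h) ≤ 1) (hfy : f ⬝ᵥ y = 0) (hhy : h ⬝ᵥ y = 0)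
    (hgy : g ⬝ᵥ y = 0) (hι : Fintype.card ι = 3) (h2 : Fintype.card F ≠ 2) (h4 : Fintype.card F ≠ 4) :
    ∀ v ∈ Wf ρ ψ f h, ρ (tt g y) v = v := by
  by_cases hy : y = 0
  · rw [hy, tt_zero_right, map_one]; exact fun v _ => rfl
  obtain ⟨k, _, hky⟩ := exists_sep (⊥ : Submodule F (ι → F)) (g := y) (by simpa using hy)
  rw [dotProduct_comm] at hky
  obtain ⟨α, hα0, hα⟩ : ∃ α : F, α ≠ 0 ∧ α ^ 3 ≠ 1 := by
    have hc : 1 < Fintype.card F := Fintype.one_lt_card
    rcases Nat.lt_or_ge 4 (Fintype.card F) with h5 | h5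
    · exact exists_pow_ne (by norm_num) (by omega)
    · have h3 : Fintype.card F = 3 := by omega
      refine ⟨-1, neg_ne_zero.2 one_ne_zero, ?_⟩
      intro h0
      have h6 : (2 : F) = 0 := by
        have : (-1 : F) ^ 3 = -1 := by ring
        rw [this] at h0
        linear_combination -h0
      have h7 : ((Fintype.card F : ℕ) : F) = 0 := FiniteField.cast_card_eq_zero F
      rw [h3] at h7
      push_cast at h7
      have h8 : (1 : F) = 0 := by linear_combination h7 - h6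
      exact one_ne_zero h8
  set u : ι → F := (α⁻¹ ^ 3 - 1) • y with hu
  have hku : k ⬝ᵥ u = α⁻¹ ^ 3 - 1 := by rw [hu, dotProduct_smul, hky, smul_eq_mul, mul_one]
  let t : Matrix.SpecialLinearGroup ι F := ⟨α • (1 + vecMulVec u k), by
    rw [Matrix.det_smul, hι, Matrix.vecMulVec_eq Unit, Matrix.det_one_add_replicateCol_mul_replicateRow, hku]
    field_simp
    ring⟩
  have ht1 : ∀ f' : ι → F, f' ⬝ᵥ y = 0 → fn t f' = α⁻¹ • f' := by
    intro f' hf'
    have h1 : (α⁻¹ • f') ᵥ* (t : Matrix ι ι F) = f' := by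
      change (α⁻¹ • f') ᵥ* (α • (1 + vecMulVec u k)) = f'
      rw [Matrix.vecMul_smul, Matrix.smul_vecMul, smul_smul, mul_inv_cancel₀ hα0, one_smul, Matrix.vecMul_add,
        Matrix.vecMul_one, Matrix.vecMul_vecMulVec, hu, dotProduct_smul, hf', smul_zero, zero_smul, add_zero]
    have h2 : fn t f' = ((α⁻¹ • f') ᵥ* (t : Matrix ι ι F)) ᵥ* ((t⁻¹ : Matrix.SpecialLinearGroup ι F) : Matrix ι ι F) := by
      rw [h1]; rfl
    rw [h2, Matrix.vecMul_vecMul, ← Matrix.SpecialLinearGroup.coe_mul, mul_inv_cancel, Matrix.SpecialLinearGroup.coe_one,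
      Matrix.vecMul_one]
  have ht2 : mv t y = α⁻¹ ^ 2 • y := by
    change (α • (1 + vecMulVec u k)) *ᵥ y = _
    rw [Matrix.smul_mulVec, Matrix.add_mulVec, Matrix.one_mulVec, Matrix.vecMulVec_mulVec, hky]
    have : MulOpposite.op (1 : F) • u = u := by
      rw [op_smul_eq_smul, one_smul]
    rw [this, hu]
    match_scalars
    field_simp
    ring
  have hα3 : α⁻¹ ^ 3 - 1 ≠ 0 := by
    rw [sub_ne_zero, inv_pow]
    intro h0
    exact hα (inv_eq_one.1 h0)
  set y' := (α⁻¹ ^ 3 - 1)⁻¹ • y with hy'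
  have hgy' : g ⬝ᵥ y' = 0 := by rw [hy', dotProduct_smul, hgy, smul_zero]
  refine core hW (a := t) (b := tt g y') ?_ (pres_of_fix ?_ ?_) ?_
  · intro v hv
    have := (Wf_conj (ψ := ψ) t (f := f) (h := h)).2 hv
    rwa [ht1 f hfy, ht1 h hhy, Wf_smul_smul (inv_ne_zero hα0)] at this
  · rw [fn_tt hgy', hy', dotProduct_smul, hfy, smul_zero, zero_smul, sub_zero]
  · rw [fn_tt hgy', hy', dotProduct_smul, hhy, smul_zero, zero_smul, sub_zero]
  · have e : mv t y' = α⁻¹ ^ 2 • y' := by rw [hy', mv_smul, ht2, smul_comm]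
    have h3 : g ⬝ᵥ (α⁻¹ ^ 2 • y') = 0 := by rw [dotProduct_smul, hgy', smul_zero]
    rw [tt_conj hgy', ht1 g hgy, e, tt_smul h3, ← mul_assoc, ← tt_add_right hgy hgy']
    congr 2
    rw [hy', smul_smul, smul_smul]
    match_scalars
    have h5 : (α⁻¹ ^ 3 - 1) * (α⁻¹ ^ 3 - 1)⁻¹ = 1 := mul_inv_cancel₀ hα3
    linear_combination h5

/-- the main statement of this file -/
theorem fix_tt (hι : 3 ≤ Fintype.card ι)
    (h3 : Fintype.card ι = 3 → Fintype.card F ≠ 2 ∧ Fintype.card F ≠ 4)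
    (h4 : Fintype.card ι = 4 → Fintype.card F ≠ 2 ∧ Fintype.card F ≠ 3)
    {f h g y : ι → F} (hW : finrank ℂ (Wf ρ ψ f h) ≤ 1) (hfy : f ⬝ᵥ y = 0) (hhy : h ⬝ᵥ y = 0)
    (hgy : g ⬝ᵥ y = 0) : ∀ v ∈ Wf ρ ψ f h, ρ (tt g y) v = v := by
  classical
  by_cases hn3 : Fintype.card ι = 3
  · exact fix_three hW hfy hhy hgy hn3 (h3 hn3).1 (h3 hn3).2
  by_cases hg : g ∈ Submodule.span F {f, h}
  · obtain ⟨z, hz, hz'⟩ := exists_z ({f, h} : Finset (ι → F)) y (by
      have := Finset.card_le_two (a := f) (b := h)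
      omega)
    have hfz : f ⬝ᵥ z = 0 := hz' f (by simp)
    have hhz : h ⬝ᵥ z = 0 := hz' h (by simp)
    refine fix_of_z hW hfy hhy hgy hz hfz hhz ?_
    obtain ⟨a, b, rfl⟩ := Submodule.mem_span_pair.1 hg
    rw [add_dotProduct, smul_dotProduct, smul_dotProduct, hfz, hhz, smul_zero, smul_zero, add_zero]
  by_cases hn4 : Fintype.card ι = 4
  · refine fix_of_notMem hW hfy hhy hgy hg ?_
    have := h4 hn4
    have hc : 1 < Fintype.card F := Fintype.one_lt_card
    omega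
  · obtain ⟨z, hz, hz'⟩ := exists_z ({f, h, g} : Finset (ι → F)) y (by
      have := Finset.card_le_three (a := f) (b := h) (c := g)
      omega)
    exact fix_of_z hW hfy hhy hgy hz (hz' f (by simp)) (hz' h (by simp)) (hz' g (by simp))

end Cfsg.Agent.LSSL
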